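import Cfsg.Agent.Lib.McL.Main
import Cfsg.Agent.Lib.Basic.PCore

set_option autoImplicit false

namespace Cfsg.Agent.Lib.McL

open Module

variable {p : ℕ} [Fact p.Prime] {V : Type*} [AddCommGroup V] [Module (ZMod p) V]

/-- The conjugate of a flag. -/
def act (h : V ≃ₗ[ZMod p] V) (q : V × Dual (ZMod p) V) : V × Dual (ZMod p) V :=
  (h q.1, q.2 ∘ₗ (h⁻¹ : V ≃ₗ[ZMod p] V).toLinearMap)

theorem act_mul (x y : V ≃ₗ[ZMod p] V) (q : V × Dual (ZMod p) V) : act (x * y) q = act x (act y q) := by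
  refine Prod.ext rfl (LinearMap.ext fun v => ?_)
  simp only [act, LinearMap.comp_apply, mul_inv_rev]
  rfl

theorem act_one (q : V × Dual (ZMod p) V) : act 1 q = q := by
  refine Prod.ext rfl (LinearMap.ext fun v => ?_)
  simp only [act, LinearMap.comp_apply, inv_one]
  rfl

theorem act_flag {H : Subgroup (V ≃ₗ[ZMod p] V)} {h : V ≃ₗ[ZMod p] V} (hh : h ∈ H)
    {q : V × Dual (ZMod p) V} (hq : Fl H q.1 q.2) : Fl H (act h q).1 (act h q).2 := by
  obtain ⟨_, _, _, _, _, _, _, hfl⟩ := Fl.conj_elt hq hh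
  exact hfl

/-- Not commuting. -/
def NC (q q' : V × Dual (ZMod p) V) : Prop := q.2 q'.1 ≠ 0 ∨ q'.2 q.1 ≠ 0

section
variable (H : Subgroup (V ≃ₗ[ZMod p] V))

/-- The flags of a group. -/
abbrev FlagT := {q : V × Dual (ZMod p) V // Fl H q.1 q.2}

/-- The relation whose classes are the components. -/
def FRel : FlagT H → FlagT H → Prop := fun q q' => NC q.1 q'.1

/-- The components. -/
abbrev Cp := Quot (FRel H)

/-- The flags in a component. -/
def gam (c : Cp H) : Set (V × Dual (ZMod p) V) :=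
  {q | ∃ h : Fl H q.1 q.2, Quot.mk (FRel H) ⟨q, h⟩ = c}

end

variable {H : Subgroup (V ≃ₗ[ZMod p] V)}

theorem mk_act_tv {a : V} {f : Dual (ZMod p) V} (hq₀ : Fl H a f) {b : V} {g : Dual (ZMod p) V}
    (hq : Fl H b g) {u : V ≃ₗ[ZMod p] V}
    (hu : ∀ v, u v = v + f v • a) (hq' : Fl H (act u (b, g)).1 (act u (b, g)).2) :
    Quot.mk (FRel H) ⟨act u (b, g), hq'⟩ = Quot.mk (FRel H) ⟨(b, g), hq⟩ := by
  have hfa := hq₀.2.2.1
  have hinv : ∀ v, u⁻¹ v = v - f v • a := tv_inv hfa hu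
  by_cases hnc : g a ≠ 0 ∨ f b ≠ 0
  · have h1 : Quot.mk (FRel H) ⟨(b, g), hq⟩ = Quot.mk (FRel H) ⟨(a, f), hq₀⟩ := Quot.sound hnc
    have h2 : Quot.mk (FRel H) ⟨act u (b, g), hq'⟩ = Quot.mk (FRel H) ⟨(a, f), hq₀⟩ := by
      apply Quot.sound
      change (g ∘ₗ (u⁻¹ : V ≃ₗ[ZMod p] V).toLinearMap) a ≠ 0 ∨ f (u b) ≠ 0
      rw [LinearMap.comp_apply]
      change g (u⁻¹ a) ≠ 0 ∨ f (u b) ≠ 0
      rw [hinv, hu]
      simpa [hfa] using hnc
    rw [h1, h2]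
  · push Not at hnc
    obtain ⟨h1, h2⟩ := hnc
    refine congrArg _ (Subtype.ext ?_)
    refine Prod.ext ?_ (LinearMap.ext fun v => ?_)
    · change u b = b
      rw [hu, h2, zero_smul, add_zero]
    · change g (u⁻¹ v) = g v
      rw [hinv]
      simp [h1]

section
variable {T : Set (V ≃ₗ[ZMod p] V)} (hHT : H = Subgroup.closure T)
  (hT : ∀ t ∈ T, ∃ q₀ : FlagT H, ∀ v, t v = v + q₀.1.2 v • q₀.1.1)
include hHT hT

theorem mk_act {h : V ≃ₗ[ZMod p] V} (hh : h ∈ H) (q : FlagT H)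
    (hq' : Fl H (act h q.1).1 (act h q.1).2) :
    Quot.mk (FRel H) ⟨act h q.1, hq'⟩ = Quot.mk (FRel H) q := by
  have hh' : h ∈ Subgroup.closure T := hHT ▸ hh
  induction hh' using Subgroup.closure_induction generalizing q with
  | mem t ht =>
    obtain ⟨q₀, hq₀⟩ := hT t ht
    exact mk_act_tv q₀.2 q.2 hq₀ hq'
  | one => exact congrArg _ (Subtype.ext (act_one _))
  | mul x y hx hy ihx ihy =>
    have hxH : x ∈ H := hHT ▸ hx
    have hyH : y ∈ H := hHT ▸ hy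
    have h1 := ihy hyH q (act_flag hyH q.2)
    have h2 := ihx hxH ⟨act y q.1, act_flag hyH q.2⟩ (act_flag hxH (act_flag hyH q.2))
    rw [← h1, ← h2]
    exact congrArg _ (Subtype.ext (act_mul _ _ _))
  | inv x hx ih =>
    have hxH : x ∈ H := hHT ▸ hx
    have h1 := ih hxH ⟨act x⁻¹ q.1, hq'⟩ (act_flag hxH hq')
    rw [← h1]
    refine congrArg _ (Subtype.ext ?_)
    simp only
    rw [← act_mul, mul_inv_cancel, act_one]

theorem gam_act {h : V ≃ₗ[ZMod p] V} (hh : h ∈ H) {c : Cp H} {q : V × Dual (ZMod p) V}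
    (hq : q ∈ gam H c) : act h q ∈ gam H c := by
  obtain ⟨hq1, rfl⟩ := hq
  exact ⟨act_flag hh hq1, mk_act hHT hT hh ⟨q, hq1⟩ _⟩

end

theorem gam_flag {c : Cp H} {q : V × Dual (ZMod p) V} (hq : q ∈ gam H c) : Fl H q.1 q.2 := hq.1

theorem gam_orth {c c' : Cp H} (hcc : c ≠ c') {q q' : V × Dual (ZMod p) V} (hq : q ∈ gam H c)
    (hq' : q' ∈ gam H c') : q.2 q'.1 = 0 ∧ q'.2 q.1 = 0 := by
  obtain ⟨h1, rfl⟩ := hq
  obtain ⟨h2, rfl⟩ := hq'
  by_contra hcon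
  apply hcc
  apply Quot.sound
  change q.2 q'.1 ≠ 0 ∨ q'.2 q.1 ≠ 0
  by_contra h3
  push Not at h3
  exact hcon h3

theorem cen_le_ann {c c' : Cp H} (hcc : c ≠ c') : cen (gam H c') ≤ annA (gam H c) := by
  apply Submodule.span_le.2
  rintro _ ⟨q', hq', rfl⟩ q hq
  exact (gam_orth hcc hq hq').1

theorem genGrp_le {c : Cp H} : genGrp (gam H c) ≤ H := by
  apply (Subgroup.closure_le _).2
  rintro u ⟨q, hq, hu⟩
  obtain ⟨_, _, _, w, hw, hw'⟩ := gam_flag hq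
  have : u = w := by
    ext v
    rw [hu, hw']
  rw [this]
  exact hw

theorem genGrp_comm {c c' : Cp H} (hcc : c ≠ c') {a b : V ≃ₗ[ZMod p] V} (ha : a ∈ genGrp (gam H c))
    (hb : b ∈ genGrp (gam H c')) : a * b = b * a := by
  have h1 : genGrp (gam H c) ≤ Subgroup.centralizer (genGrp (gam H c') : Set (V ≃ₗ[ZMod p] V)) := by
    apply (Subgroup.closure_le _).2
    rintro u ⟨q, hq, hu⟩
    rw [SetLike.mem_coe, Subgroup.mem_centralizer_iff]
    intro w hw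
    have h2 : genGrp (gam H c') ≤ Subgroup.centralizer ({u} : Set (V ≃ₗ[ZMod p] V)) := by
      apply (Subgroup.closure_le _).2
      rintro w' ⟨q', hq', hw'⟩
      rw [SetLike.mem_coe, Subgroup.mem_centralizer_singleton_iff]
      obtain ⟨h3, h4⟩ := gam_orth hcc hq hq'
      exact tv_commute hw' hu h4 h3
    have h3 := h2 hw
    rw [Subgroup.mem_centralizer_singleton_iff] at h3
    exact h3
  have h2 := h1 ha
  rw [Subgroup.mem_centralizer_iff] at h2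
  exact (h2 b hb).symm

theorem genGrp_conj {c : Cp H} {T : Set (V ≃ₗ[ZMod p] V)} (hHT : H = Subgroup.closure T)
    (hT : ∀ t ∈ T, ∃ q₀ : FlagT H, ∀ v, t v = v + q₀.1.2 v • q₀.1.1) {g : V ≃ₗ[ZMod p] V} (hg : g ∈ H)
    {n : V ≃ₗ[ZMod p] V} (hn : n ∈ genGrp (gam H c)) : g * n * g⁻¹ ∈ genGrp (gam H c) := by
  change n ∈ Subgroup.closure _ at hn
  induction hn using Subgroup.closure_induction with
  | mem x hx =>
    obtain ⟨q, hq, hx⟩ := hx
    refine Subgroup.subset_closure ⟨act g q, gam_act hHT hT hg hq, fun v => ?_⟩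
    change g (x (g⁻¹ v)) = v + (q.2 (g⁻¹ v)) • g q.1
    rw [hx, map_add, map_smul, apply_inv_apply]
  | one => simp [Subgroup.one_mem]
  | mul x y _ _ hx hy =>
    have : g * (x * y) * g⁻¹ = (g * x * g⁻¹) * (g * y * g⁻¹) := by group
    rw [this]
    exact Subgroup.mul_mem _ hx hy
  | inv x _ hx =>
    have : g * x⁻¹ * g⁻¹ = (g * x * g⁻¹)⁻¹ := by group
    rw [this]
    exact Subgroup.inv_mem _ hx

section
variable [Finite V] {T : Set (V ≃ₗ[ZMod p] V)} (hHT : H = Subgroup.closure T)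
  (hT : ∀ t ∈ T, ∃ q₀ : FlagT H, ∀ v, t v = v + q₀.1.2 v • q₀.1.1) (hp : p ≠ 2)
  (hcoreH : ∀ N : Subgroup H, N.Normal → IsPGroup p N → N = ⊥)

include hp hcoreH in
theorem partner_in_gam {c : Cp H} {q : V × Dual (ZMod p) V} (hq : q ∈ gam H c) :
    ∃ q' ∈ gam H c, q.2 q'.1 ≠ 0 ∧ q'.2 q.1 ≠ 0 := by
  obtain ⟨b, g, hb, h1, h2⟩ := Fl.partner_of_core hp hcoreH (gam_flag hq)
  obtain ⟨hq1, rfl⟩ := hq
  refine ⟨(b, g), ⟨hb, ?_⟩, h1, h2⟩
  apply Quot.sound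
  exact Or.inr h1

include hHT hT hcoreH in
theorem gam_core (c : Cp H) (N : Subgroup (genGrp (gam H c))) (hN : N.Normal) (hNp : IsPGroup p N) :
    N = ⊥ := by
  let N₁ : Subgroup (V ≃ₗ[ZMod p] V) := N.map (genGrp (gam H c)).subtype
  have hN₁K : N₁ ≤ genGrp (gam H c) := Subgroup.map_subtype_le N
  have hnorm : H ≤ Subgroup.normalizer (N₁ : Set (V ≃ₗ[ZMod p] V)) := by
    rw [hHT]
    apply (Subgroup.closure_le _).2
    intro t ht
    obtain ⟨q₀, hq₀⟩ := hT t ht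
    rw [SetLike.mem_coe, Subgroup.mem_normalizer_iff]
    by_cases hcc : Quot.mk (FRel H) q₀ = c
    · have htK : t ∈ genGrp (gam H c) := Subgroup.subset_closure ⟨q₀.1, ⟨q₀.2, hcc⟩, hq₀⟩
      intro h
      constructor
      · rintro ⟨m, hm, rfl⟩
        exact ⟨⟨t, htK⟩ * m * ⟨t, htK⟩⁻¹, hN.conj_mem m hm _, rfl⟩
      · rintro ⟨m, hm, hmeq⟩
        refine ⟨⟨t, htK⟩⁻¹ * m * ⟨t, htK⟩, ?_, ?_⟩
        · have := hN.conj_mem m hm ⟨t, htK⟩⁻¹
          simpa using this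
        · change t⁻¹ * m.1 * t = h
          change m.1 = _ at hmeq
          rw [hmeq]
          group
    · have htK : t ∈ genGrp (gam H (Quot.mk (FRel H) q₀)) :=
        Subgroup.subset_closure ⟨q₀.1, ⟨q₀.2, rfl⟩, hq₀⟩
      have hcm : ∀ k ∈ genGrp (gam H c), t * k * t⁻¹ = k := by
        intro k hk
        rw [genGrp_comm hcc htK hk]
        group
      intro h
      constructor
      · intro hh
        rw [hcm h (hN₁K hh)]
        exact hh
      · intro hh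
        have h2 := hcm _ (hN₁K hh)
        have h3 : t⁻¹ * (t * h * t⁻¹) * t = t * h * t⁻¹ := by
          nth_rewrite 1 [← h2]
          group
        have h1 : h = t⁻¹ * (t * h * t⁻¹) * t := by group
        rw [h1, h3]
        exact hh
  have hbot := hcoreH (N₁.subgroupOf H) ⟨fun n hn g => by
      have h1 := (Subgroup.mem_normalizer_iff.1 (hnorm g.2) n.1).1 hn
      exact h1⟩ (by
      rintro ⟨x, hx⟩
      obtain ⟨m, hm, hmeq⟩ := hx
      obtain ⟨k, hk⟩ := hNp ⟨m, hm⟩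
      refine ⟨k, Subtype.ext (Subtype.ext ?_)⟩
      have h1 : (m : V ≃ₗ[ZMod p] V) ^ p ^ k = 1 := by
        have := congrArg (fun z : N => ((z : genGrp (gam H c)) : V ≃ₗ[ZMod p] V)) hk
        simpa using this
      simp only [Subgroup.coe_pow, Subgroup.coe_one]
      have hmeq' : m.1 = x.1 := hmeq
      rw [← hmeq']
      exact h1)
  rw [eq_bot_iff]
  rintro m hm
  have h1 : (⟨m.1, genGrp_le m.2⟩ : H) ∈ N₁.subgroupOf H := by
    rw [Subgroup.mem_subgroupOf]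
    exact ⟨m, hm, rfl⟩
  rw [hbot, Subgroup.mem_bot] at h1
  have h2 : m.1 = 1 := congrArg Subtype.val h1
  exact Subgroup.mem_bot.2 (Subtype.ext h2)

include hHT hT hp hcoreH in
theorem gam_comp (c : Cp H) : CompM (gam H c) where
  flag q hq := by
    obtain ⟨h1, h2, h3, _⟩ := gam_flag hq
    exact ⟨h1, h2, h3⟩
  partner q hq := partner_in_gam hp hcoreH hq
  conn := by
    rintro S ⟨q₀, hq₀, hS₀⟩ hcl q hq
    obtain ⟨h₀, rfl⟩ := hq₀
    obtain ⟨h₁, hmk⟩ := hq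
    let F : FlagT H → Prop := fun x => Quot.mk (FRel H) x = Quot.mk (FRel H) ⟨q₀, h₀⟩ → x.1.1 ∈ S
    have hF : ∀ x y, FRel H x y → F x = F y := by
      intro x y hxy
      apply propext
      have hmkxy : Quot.mk (FRel H) x = Quot.mk (FRel H) y := Quot.sound hxy
      constructor
      · intro hx hy
        exact hcl x.1 ⟨x.2, hmkxy.trans hy⟩ y.1 ⟨y.2, hy⟩ (hx (hmkxy.trans hy)) hxy
      · intro hy hx
        exact hcl y.1 ⟨y.2, hmkxy.symm.trans hx⟩ x.1 ⟨x.2, hx⟩ (hy (hmkxy.symm.trans hx)) (Or.symm hxy)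
    have h2 : Quot.lift F hF (Quot.mk _ ⟨q, h₁⟩) = Quot.lift F hF (Quot.mk _ ⟨q₀, h₀⟩) :=
      congrArg _ hmk
    have h3 : F ⟨q, h₁⟩ = F ⟨q₀, h₀⟩ := h2
    have h4 : F ⟨q₀, h₀⟩ := fun _ => hS₀
    have h5 : F ⟨q, h₁⟩ := h3 ▸ h4
    exact h5 hmk
  core := gam_core hHT hT hcoreH c
  conj k hk q hq := gam_act hHT hT (genGrp_le hk) hq
  smulR q hq d hd := by
    obtain ⟨q', hq', h1, h2⟩ := partner_in_gam hp hcoreH hq
    obtain ⟨hq1, rfl⟩ := hq
    obtain ⟨ha0, hf0, hfa, u, huG, hu⟩ := hq1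
    obtain ⟨w, hwG, hw⟩ := Fl.smul_scalar hfa huG hu d
    have hfl : Fl H (q.1, d • q.2).1 (q.1, d • q.2).2 :=
      ⟨ha0, smul_ne_zero hd hf0, by simp [hfa], w, hwG, fun v => by simpa using hw v⟩
    refine ⟨hfl, ?_⟩
    obtain ⟨hq'1, hq'2⟩ := hq'
    rw [← hq'2]
    apply Quot.sound
    exact Or.inl (by simpa [hd] using h1)
  smulL q hq d hd := by
    obtain ⟨q', hq', h1, h2⟩ := partner_in_gam hp hcoreH hq
    obtain ⟨hq1, rfl⟩ := hq
    obtain ⟨ha0, hf0, hfa, u, huG, hu⟩ := hq1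
    obtain ⟨w, hwG, hw⟩ := Fl.smul_scalar hfa huG hu d
    have hfl : Fl H (d • q.1, q.2).1 (d • q.1, q.2).2 := by
      refine ⟨smul_ne_zero hd ha0, hf0, by simp [hfa], w, hwG, fun v => ?_⟩
      rw [hw]
      simp only [smul_smul, mul_comm]
    refine ⟨hfl, ?_⟩
    obtain ⟨hq'1, hq'2⟩ := hq'
    rw [← hq'2]
    apply Quot.sound
    exact Or.inr (by simpa [hd] using h2)
  ne := by
    obtain ⟨x, rfl⟩ := Quot.exists_rep c
    exact ⟨x.1, x.2, rfl⟩

end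

end Cfsg.Agent.Lib.McL
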