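import Cfsg.Agent.Lib.McL.Asm

set_option autoImplicit false

namespace Cfsg.Agent.Lib.McL

open Module

variable {p : ℕ} [Fact p.Prime] {V : Type*} [AddCommGroup V] [Module (ZMod p) V]

/-- The normal form of a transvection. -/
theorem tv_form [Finite V] {t : V ≃ₗ[ZMod p] V} (h1 : orderOf t = p)
    (h2 : finrank (ZMod p) ↥(LinearMap.ker ((t : V →ₗ[ZMod p] V) - LinearMap.id)) + 1 =
      finrank (ZMod p) V) :
    ∃ (a : V) (f : Dual (ZMod p) V), a ≠ 0 ∧ f ≠ 0 ∧ f a = 0 ∧ ∀ v, t v = v + f v • a := by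
  haveI : Module.Finite (ZMod p) V := Module.Finite.of_finite
  set D : V →ₗ[ZMod p] V := (t : V →ₗ[ZMod p] V) - LinearMap.id with hD
  have hrk := LinearMap.finrank_range_add_finrank_ker D
  have hr1 : finrank (ZMod p) (LinearMap.range D) = 1 := by omega
  obtain ⟨⟨a, ha⟩, hne, hall⟩ := finrank_eq_one_iff'.1 hr1
  have ha0 : a ≠ 0 := fun h => hne (Subtype.ext h)
  obtain ⟨ψ, hψ⟩ : ∃ ψ : Dual (ZMod p) V, ψ a ≠ 0 := by
    by_contra hcon
    push Not at hcon
    exact ha0 ((Module.forall_dual_apply_eq_zero_iff (ZMod p) a).1 hcon)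
  let f : Dual (ZMod p) V := (ψ a)⁻¹ • ψ ∘ₗ D
  have hDv : ∀ v, D v = f v • a := by
    intro v
    obtain ⟨c, hc⟩ := hall ⟨D v, LinearMap.mem_range_self D v⟩
    have hc' : c • a = D v := congrArg Subtype.val hc
    have : f v = c := by
      simp only [f, LinearMap.smul_apply, LinearMap.comp_apply, ← hc', map_smul, smul_eq_mul]
      field_simp
    rw [this, hc']
  have htv : ∀ v, t v = v + f v • a := by
    intro v
    rw [← hDv, hD]
    simp
  have hfa : f a = 0 := by
    set μ : ZMod p := 1 + f a with hμ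
    have hta : t a = μ • a := by
      rw [htv, hμ, add_smul, one_smul]
    have hpow : ∀ n : ℕ, (t ^ n) a = μ ^ n • a := by
      intro n
      induction n with
      | zero => simp
      | succ n ih =>
        rw [pow_succ, LinearEquiv.mul_apply, hta, map_smul, ih, smul_smul, pow_succ, mul_comm]
    have h3 : t ^ p = 1 := by
      have := pow_orderOf_eq_one t
      rwa [h1] at this
    have h4 := hpow p
    rw [h3, ZMod.pow_card] at h4
    have h5 : f a • a = 0 := by
      have h6 : a = (1 + f a) • a := h4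
      rw [add_smul, one_smul] at h6
      have h7 : a + f a • a = a + 0 := by
        rw [← h6, add_zero]
      exact add_left_cancel h7
    rcases smul_eq_zero.1 h5 with h | h
    · exact h
    · exact absurd h ha0
  refine ⟨a, f, ha0, ?_, hfa, htv⟩
  rintro hf
  have ht1 : t = 1 := by
    ext v
    rw [htv, hf]
    simp
  rw [ht1, orderOf_one] at h1
  exact (Fact.out : p.Prime).one_lt.ne h1

theorem exists_proj {A N : Submodule (ZMod p) V} (h : IsCompl A N) :
    ∃ P : V →ₗ[ZMod p] V, (∀ v, P v ∈ A) ∧ (∀ a ∈ A, P a = a) ∧ (∀ n ∈ N, P n = 0) ∧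
      ∀ v, v - P v ∈ N := by
  let Q := A.projectionOnto N h
  have hl : ∀ a ∈ A, (Q a : V) = a := fun a ha => by
    have := Submodule.projectionOnto_apply_left h ⟨a, ha⟩
    exact congrArg Subtype.val this
  have hr : ∀ n ∈ N, (Q n : V) = 0 := fun n hn => by
    have := Submodule.projectionOnto_apply_right h ⟨n, hn⟩
    exact congrArg Subtype.val this
  refine ⟨A.subtype ∘ₗ Q, fun v => (Q v).2, hl, hr, fun v => ?_⟩
  have hv : v ∈ A ⊔ N := by
    rw [h.sup_eq_top]
    trivial
  obtain ⟨a, ha, n, hn, rfl⟩ := Submodule.mem_sup.1 hv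
  simp only [LinearMap.comp_apply, Submodule.subtype_apply, map_add, Submodule.coe_add, hl a ha,
    hr n hn, add_zero]
  simpa using hn

theorem asm_decomp {ι : Type*} [Fintype ι] [DecidableEq ι] (A N : ι → Submodule (ZMod p) V)
    (hc : ∀ i, IsCompl (A i) (N i)) (hle : ∀ i j, i ≠ j → A j ≤ N i) :
    Disjoint (⨅ i, N i) (⨆ i, A i) ∧ Codisjoint (⨅ i, N i) (⨆ i, A i) := by
  choose P hP1 hP2 hP3 hP4 using fun i => exists_proj (hc i)
  let Q : V →ₗ[ZMod p] V := ∑ i, P i
  have hQ : ∀ v, Q v = ∑ i, P i v := fun v => by simp [Q, LinearMap.sum_apply]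
  have hQA : ∀ x ∈ ⨆ i, A i, Q x = x := by
    intro x hx
    have : (⨆ i, A i) ≤ LinearMap.eqLocus Q LinearMap.id := by
      apply iSup_le
      intro i a ha
      rw [LinearMap.mem_eqLocus, hQ, LinearMap.id_apply,
        Finset.sum_eq_single i (fun j _ hji => hP3 j a (hle j i hji ha)) (by simp), hP2 i a ha]
    exact this hx
  constructor
  · rw [Submodule.disjoint_def]
    intro x hx hx'
    rw [← hQA x hx', hQ]
    refine Finset.sum_eq_zero fun i _ => hP3 i x ?_
    exact (Submodule.mem_iInf _).1 hx i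
  · rw [codisjoint_iff, eq_top_iff]
    rintro v -
    have hv : v = (v - Q v) + Q v := by abel
    rw [hv]
    refine Submodule.add_mem_sup ?_ ?_
    · rw [Submodule.mem_iInf]
      intro i
      have h1 : Q v = P i v + ∑ j ∈ Finset.univ.erase i, P j v := by
        rw [hQ]
        exact (Finset.add_sum_erase _ (fun j => P j v) (Finset.mem_univ i)).symm
      have h2 : v - Q v = (v - P i v) - ∑ j ∈ Finset.univ.erase i, P j v := by
        rw [h1]
        abel
      rw [h2]
      refine Submodule.sub_mem _ (hP4 i v) (Submodule.sum_mem _ fun j hj => ?_)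
      exact hle i j (Finset.ne_of_mem_erase hj).symm (hP1 j v)
    · rw [hQ]
      exact Submodule.sum_mem _ fun i _ => Submodule.mem_iSup_of_mem i (hP1 i v)

theorem internal_of {n : ℕ} (A N : Fin n → Submodule (ZMod p) V)
    (hc : ∀ i, IsCompl (A i) (N i)) (hle : ∀ i j, i ≠ j → A j ≤ N i) :
    DirectSum.IsInternal (Fin.cases (⨅ i, N i) A : Fin (n + 1) → Submodule (ZMod p) V) := by
  obtain ⟨hd, hcd⟩ := asm_decomp A N hc hle
  rw [DirectSum.isInternal_submodule_iff_iSupIndep_and_iSup_eq_top]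
  constructor
  · intro i
    refine Fin.cases ?_ (fun k => ?_) i
    · refine hd.mono_right (iSup₂_le fun j hj => ?_)
      obtain ⟨k, rfl⟩ := Fin.exists_succ_eq.2 hj
      exact le_iSup A k
    · refine (hc k).disjoint.mono_right (iSup₂_le fun j hj => ?_)
      refine Fin.cases ?_ (fun l hl => ?_) j hj
      · intro _
        exact iInf_le N k
      · exact hle k l (fun h => hl (by rw [h]))
  · rw [eq_top_iff, ← hcd.eq_top]
    refine sup_le ?_ (iSup_le fun k => ?_)
    · exact le_iSup (Fin.cases (⨅ i, N i) A : Fin (n + 1) → Submodule (ZMod p) V) 0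
    · exact le_iSup (Fin.cases (⨅ i, N i) A : Fin (n + 1) → Submodule (ZMod p) V) k.succ

theorem map_stable {H : Subgroup (V ≃ₗ[ZMod p] V)} {W : Submodule (ZMod p) V}
    (hW : ∀ h ∈ H, ∀ w ∈ W, h w ∈ W) {h : V ≃ₗ[ZMod p] V} (hh : h ∈ H) :
    W.map (h : V →ₗ[ZMod p] V) = W := by
  apply le_antisymm
  · rintro _ ⟨w, hw, rfl⟩
    exact hW h hh w hw
  · intro w hw
    refine ⟨h⁻¹ w, hW _ (H.inv_mem hh) w hw, ?_⟩
    exact apply_inv_apply h w

end Cfsg.Agent.Lib.McL
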