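import Cfsg.Agent.Lib.McL.Core

set_option autoImplicit false

namespace Cfsg.Agent.Lib.McL

open Module

variable {p : ℕ} [Fact p.Prime] {X : Type*} [AddCommGroup X] [Module (ZMod p) X]
variable {Θ : X → Dual (ZMod p) X → Prop}

/-- The space of axes at a point. -/
def Sys.axes (hΘ : Sys Θ) (x : X) : Submodule (ZMod p) (Dual (ZMod p) X) where
  carrier := {φ | φ = 0 ∨ Θ x φ}
  zero_mem' := Or.inl rfl
  add_mem' := by
    rintro a b (rfl | ha) (rfl | hb)
    · exact Or.inl (by simp)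
    · exact Or.inr (by simpa using hb)
    · exact Or.inr (by simpa using ha)
    · by_cases h : a + b = 0
      · exact Or.inl h
      · exact Or.inr (hΘ.add_right ha hb h)
  smul_mem' := by
    rintro c a (rfl | ha)
    · exact Or.inl (by simp)
    · by_cases hc : c = 0
      · subst hc
        exact Or.inl (by simp)
      · exact Or.inr (hΘ.smul_right c hc ha)

theorem finite_dual [Finite X] : Finite (Dual (ZMod p) X) := by
  haveI : NeZero p := ⟨(Fact.out : p.Prime).ne_zero⟩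
  exact DFunLike.finite _

theorem Sys.card_mv [Finite X] (hΘ : Sys Θ) {x u : X} {ξ} (hu : Θ u ξ) :
    Nat.card (hΘ.axes x) ≤ Nat.card (hΘ.axes (x + ξ x • u)) := by
  haveI := finite_dual (p := p) (X := X)
  refine Nat.card_le_card_of_injective
    (fun φ => ⟨φ.1 - φ.1 u • ξ, ?_⟩) ?_
  · rcases φ.2 with h | h
    · exact Or.inl (by simp [h])
    · exact Or.inr (hΘ.conj hu h)
  · intro φ φ' h
    have h1 : φ.1 - φ.1 u • ξ = φ'.1 - φ'.1 u • ξ := congrArg Subtype.val h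
    have h2 := congrArg (fun ψ : Dual (ZMod p) X => ψ u) h1
    simp only [LinearMap.sub_apply, LinearMap.smul_apply, hΘ.flag hu, smul_eq_mul, mul_zero,
      sub_zero] at h2
    rw [h2] at h1
    exact Subtype.ext (sub_left_injective h1)

theorem Sys.card_reach [Finite X] (hΘ : Sys Θ) {x y : X} (h : Reach Θ x y) :
    Nat.card (hΘ.axes x) ≤ Nat.card (hΘ.axes y) := by
  induction h with
  | refl => exact le_rfl
  | tail _ h ih =>
    obtain ⟨u, ξ, hu, rfl⟩ := h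
    exact ih.trans (hΘ.card_mv hu)

theorem Sys.sym [Finite X] (hΘ : Sys Θ) (hp : p ≠ 2) {x y : X} {f} (hx : Θ x f) (hfy : f y ≠ 0) :
    ∃ g, Θ y g ∧ g x ≠ 0 := by
  haveI := finite_dual (p := p) (X := X)
  by_contra hcon
  push Not at hcon
  have hy : y ≠ 0 := by
    rintro rfl
    simp at hfy
  have hxne := hΘ.ne_left hx
  have hle : hΘ.axes y < hΘ.axes x := by
    refine lt_of_le_of_ne ?_ ?_
    · rintro g (rfl | hg)
      · exact Or.inl rfl
      · exact Or.inr (hΘ.ruleH hx hg hfy (hcon g hg))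
    · intro h
      have : f ∈ hΘ.axes y := by
        rw [h]
        exact Or.inr hx
      rcases this with h0 | h1
      · exact hΘ.ne_right hx h0
      · exact hfy (hΘ.flag h1)
  have h1 : Nat.card (hΘ.axes y) < Nat.card (hΘ.axes x) := by
    haveI : Finite (hΘ.axes x) := inferInstance
    exact Set.ncard_lt_ncard hle (Set.toFinite _)
  have h2 := hΘ.card_reach (hΘ.reach_all hp hxne hy)
  omega

/-- Two independent axes. -/
def P2 (Θ : X → Dual (ZMod p) X → Prop) (x : X) : Prop :=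
  ∃ f f', Θ x f ∧ Θ x f' ∧ ∀ c : ZMod p, f' ≠ c • f

theorem Sys.P2_mv (hΘ : Sys Θ) {x u : X} {ξ} (hu : Θ u ξ) (h : P2 Θ x) : P2 Θ (x + ξ x • u) := by
  obtain ⟨f, f', hf, hf', hc⟩ := h
  refine ⟨_, _, hΘ.conj hu hf, hΘ.conj hu hf', ?_⟩
  intro c hcon
  have h2 := congrArg (fun ψ : Dual (ZMod p) X => ψ u) hcon
  simp only [LinearMap.sub_apply, LinearMap.smul_apply, hΘ.flag hu, smul_eq_mul, mul_zero,
    sub_zero] at h2
  apply hc c
  rw [h2] at hcon
  rw [smul_sub, smul_smul] at hcon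
  exact sub_left_injective hcon

theorem Sys.P2_reach (hΘ : Sys Θ) {x y : X} (h : Reach Θ x y) (hx : P2 Θ x) : P2 Θ y := by
  induction h with
  | refl => exact hx
  | tail _ h ih =>
    obtain ⟨u, ξ, hu, rfl⟩ := h
    exact hΘ.P2_mv hu ih

theorem dual_eq_smul_of_ker {ψ g : Dual (ZMod p) X} (hg : g ≠ 0)
    (h : ∀ v, g v = 0 → ψ v = 0) : ∃ c : ZMod p, ψ = c • g := by
  obtain ⟨z, hz⟩ : ∃ z, g z ≠ 0 := by
    by_contra hcon
    push Not at hcon
    exact hg (LinearMap.ext hcon)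
  refine ⟨ψ z / g z, LinearMap.ext fun v => ?_⟩
  have h1 := h (v - (g v / g z) • z) (by
    simp only [map_sub, map_smul, smul_eq_mul]
    field_simp
    ring)
  simp only [map_sub, map_smul, smul_eq_mul] at h1
  simp only [LinearMap.smul_apply, smul_eq_mul]
  field_simp
  field_simp at h1
  linear_combination h1

theorem Sys.exists_ker_not (hΘ : Sys Θ) {x : X} {g : Dual (ZMod p) X} (hx : P2 Θ x) (hg : g ≠ 0) :
    ∃ u ψ, Θ x ψ ∧ g u = 0 ∧ ψ u ≠ 0 := by
  obtain ⟨f, f', hf, hf', hc⟩ := hx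
  by_contra hcon
  push Not at hcon
  obtain ⟨c, hc1⟩ := dual_eq_smul_of_ker hg (fun v hv => hcon v f hf hv)
  obtain ⟨c', hc2⟩ := dual_eq_smul_of_ker hg (fun v hv => hcon v f' hf' hv)
  have hc0 : c ≠ 0 := by
    rintro rfl
    exact hΘ.ne_right hf (by simpa using hc1)
  apply hc (c' / c)
  rw [hc1, hc2, smul_smul, div_mul_cancel₀ _ hc0]

/-- No bad flags in type I. -/
theorem Sys.no_bad [Finite X] (hΘ : Sys Θ) (hp : p ≠ 2) (hP : ∀ x, x ≠ 0 → P2 Θ x) {b x : X} {g}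
    (hb : Θ b g) (hx : x ≠ 0) (hgx : g x = 0) : Θ x g := by
  by_contra hbad
  have h1 : ∀ ψ, Θ x ψ → ψ b = 0 := by
    intro ψ hψ
    by_contra h
    exact hbad (hΘ.ruleH hψ hb h hgx)
  have hg0 := hΘ.ne_right hb
  obtain ⟨u₁, ψ₁, hψ₁, hgu₁, hu₁⟩ := hΘ.exists_ker_not (hP x hx) hg0
  obtain ⟨u₂, ζ₂, hζ₂, hgu₂, hu₂⟩ := hΘ.exists_ker_not (hP b (hΘ.ne_left hb)) hg0
  obtain ⟨u, ψ, ζ, hψ, hζ, hgu, hψu, hζu⟩ :
      ∃ u ψ ζ, Θ x ψ ∧ Θ b ζ ∧ g u = 0 ∧ ψ u ≠ 0 ∧ ζ u ≠ 0 := by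
    by_cases h3 : ζ₂ u₁ ≠ 0
    · exact ⟨u₁, ψ₁, ζ₂, hψ₁, hζ₂, hgu₁, hu₁, h3⟩
    by_cases h4 : ψ₁ u₂ ≠ 0
    · exact ⟨u₂, ψ₁, ζ₂, hψ₁, hζ₂, hgu₂, h4, hu₂⟩
    push Not at h3 h4
    refine ⟨u₁ + u₂, ψ₁, ζ₂, hψ₁, hζ₂, by simp [hgu₁, hgu₂], ?_, ?_⟩
    · simpa [h4] using hu₁
    · simpa [h3] using hu₂
  obtain ⟨ξ, hξ, hξb⟩ := hΘ.sym hp hζ hζu
  have h5 := hΘ.conj hξ hb
  rw [hgu, zero_smul, sub_zero] at h5
  refine hbad (hΘ.ruleH hψ h5 ?_ hgx)
  simp only [map_add, map_smul, smul_eq_mul, h1 ψ hψ, zero_add]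
  exact mul_ne_zero hξb hψu

theorem Sys.finrank_ge [Finite X] (hΘ : Sys Θ) {x : X} (hx : P2 Θ x) : 3 ≤ finrank (ZMod p) X := by
  haveI : NeZero p := ⟨(Fact.out : p.Prime).ne_zero⟩
  haveI : Module.Finite (ZMod p) X := Module.Finite.of_finite
  obtain ⟨f, f', hf, hf', hc⟩ := hx
  have hf0 := hΘ.ne_right hf
  obtain ⟨z₁, hz₁⟩ : ∃ z, f z ≠ 0 := by
    by_contra hcon
    push Not at hcon
    exact hf0 (LinearMap.ext hcon)
  obtain ⟨z₂, hz₂, hz₂'⟩ : ∃ z, f z = 0 ∧ f' z ≠ 0 := by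
    by_contra hcon
    push Not at hcon
    obtain ⟨c, hc1⟩ := dual_eq_smul_of_ker hf0 hcon
    exact hc c hc1
  have hxne := hΘ.ne_left hf
  have hli : LinearIndependent (ZMod p) ![x, z₁, z₂] := by
    rw [Fintype.linearIndependent_iff]
    intro a ha i
    simp only [Fin.sum_univ_three, Matrix.cons_val_zero, Matrix.cons_val_one, Matrix.cons_val] at ha
    have h1 := congrArg f ha
    simp only [map_add, map_smul, smul_eq_mul, hΘ.flag hf, hz₂, mul_zero, zero_add, add_zero,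
      map_zero] at h1
    have ha1 : a 1 = 0 := by
      rcases mul_eq_zero.1 h1 with h | h
      · exact h
      · exact absurd h hz₁
    have h2 := congrArg f' ha
    simp only [map_add, map_smul, smul_eq_mul, hΘ.flag hf', ha1, zero_mul, mul_zero, zero_add,
      add_zero, map_zero] at h2
    have ha2 : a 2 = 0 := by
      rcases mul_eq_zero.1 h2 with h | h
      · exact h
      · exact absurd h hz₂'
    rw [ha1, ha2, zero_smul, zero_smul, add_zero, add_zero] at ha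
    have ha0 : a 0 = 0 := by
      rcases smul_eq_zero.1 ha with h | h
      · exact h
      · exact absurd h hxne
    fin_cases i
    · exact ha0
    · exact ha1
    · exact ha2
  simpa using hli.fintype_card_le_finrank

end Cfsg.Agent.Lib.McL
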