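import Cfsg.Agent.Lib.McL.Class

set_option autoImplicit false

namespace Cfsg.Agent.Lib.McL

open Module

variable {p : ℕ} [Fact p.Prime] {X : Type*} [AddCommGroup X] [Module (ZMod p) X]
variable {Θ : X → Dual (ZMod p) X → Prop}

theorem Sys.type_one [Finite X] (hΘ : Sys Θ) (hp : p ≠ 2) {x₀ : X} (hx₀ : P2 Θ x₀) :
    3 ≤ finrank (ZMod p) X ∧ ∀ x g, x ≠ 0 → g ≠ 0 → g x = 0 → Θ x g := by
  haveI : NeZero p := ⟨(Fact.out : p.Prime).ne_zero⟩
  haveI : Module.Finite (ZMod p) X := Module.Finite.of_finite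
  have h3 := hΘ.finrank_ge hx₀
  refine ⟨h3, ?_⟩
  have hx₀ne : x₀ ≠ 0 := by
    obtain ⟨f, _, hf, _⟩ := hx₀
    exact hΘ.ne_left hf
  have hP : ∀ x, x ≠ 0 → P2 Θ x := fun x hx => hΘ.P2_reach (hΘ.reach_all hp hx₀ne hx) hx₀
  have hker : ∀ g g' : Dual (ZMod p) X, ∃ x, x ≠ 0 ∧ g x = 0 ∧ g' x = 0 := by
    intro g g'
    have : LinearMap.ker (LinearMap.prod g g') ≠ ⊥ := by
      apply LinearMap.ker_ne_bot_of_finrank_lt
      simp only [Module.finrank_prod, Module.finrank_self]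
      omega
    obtain ⟨x, hx, hx0⟩ := Submodule.exists_mem_ne_zero_of_ne_bot this
    rw [LinearMap.mem_ker] at hx
    exact ⟨x, hx0, congrArg Prod.fst hx, congrArg Prod.snd hx⟩
  let QS : Submodule (ZMod p) (Dual (ZMod p) X) :=
    { carrier := {g | g = 0 ∨ ∃ b, Θ b g}
      zero_mem' := Or.inl rfl
      add_mem' := by
        rintro a b (rfl | ⟨u, hu⟩) (rfl | ⟨v, hv⟩)
        · exact Or.inl (by simp)
        · exact Or.inr ⟨v, by simpa using hv⟩
        · exact Or.inr ⟨u, by simpa using hu⟩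
        · by_cases h : a + b = 0
          · exact Or.inl h
          · obtain ⟨x, hx, h1, h2⟩ := hker a b
            exact Or.inr ⟨x, hΘ.add_right (hΘ.no_bad hp hP hu hx h1) (hΘ.no_bad hp hP hv hx h2) h⟩
      smul_mem' := by
        rintro c a (rfl | ⟨u, hu⟩)
        · exact Or.inl (by simp)
        · by_cases hc : c = 0
          · subst hc
            exact Or.inl (by simp)
          · exact Or.inr ⟨u, hΘ.smul_right c hc hu⟩ }
  have hQS : QS = ⊤ := by
    have h1 : QS.dualCoannihilator = ⊥ := by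
      rw [eq_bot_iff]
      intro w hw
      by_contra hw0
      obtain ⟨e, φ, he, hφ⟩ := hΘ.sep w hw0
      rw [Submodule.mem_dualCoannihilator] at hw
      exact hφ (hw φ (Or.inr ⟨e, he⟩))
    have h2 := Subspace.dualCoannihilator_dualAnnihilator_eq (W := QS)
    rw [h1, Submodule.dualAnnihilator_bot] at h2
    exact h2.symm
  intro x g hx hg hgx
  have : g ∈ QS := by rw [hQS]; trivial
  rcases this with h | ⟨b, hb⟩
  · exact absurd h hg
  · exact hΘ.no_bad hp hP hb hx hgx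

theorem Sys.type_two [Finite X] (hΘ : Sys Θ) (hp : p ≠ 2) (hne : ∃ a f, Θ a f)
    (hno : ∀ x, ¬ P2 Θ x) :
    ∃ L : X →ₗ[ZMod p] Dual (ZMod p) X, (∀ x y, L x y = - L y x) ∧ (∀ x, L x x = 0) ∧
      (∀ x, L x = 0 → x = 0) ∧ ∀ x f, Θ x f ↔ x ≠ 0 ∧ ∃ c : ZMod p, c ≠ 0 ∧ f = c • L x := by
  have hline : ∀ {x f f'}, Θ x f → Θ x f' → ∃ c : ZMod p, f' = c • f := by
    intro x f f' hf hf'
    by_contra hcon
    push Not at hcon
    exact hno x ⟨f, f', hf, hf', hcon⟩
  -- injectivity of the polarity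
  have hinj : ∀ {x y φ}, Θ x φ → Θ y φ → ∃ c : ZMod p, y = c • x := by
    intro x y φ hx hy
    by_contra hindep
    push Not at hindep
    obtain ⟨w, hw⟩ : ∃ w, φ w ≠ 0 := by
      by_contra hcon
      push Not at hcon
      exact hΘ.ne_right hx (LinearMap.ext hcon)
    obtain ⟨g, hg, hgx⟩ := hΘ.sym hp hx hw
    obtain ⟨g', hg', hgy⟩ := hΘ.sym hp hy hw
    obtain ⟨c, rfl⟩ := hline hg hg'
    have hgy' : g y ≠ 0 := by
      intro h
      apply hgy
      simp [h]
    set c' := - (g y / g x) with hc'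
    have hc'0 : c' ≠ 0 := neg_ne_zero.2 (div_ne_zero hgy' hgx)
    have hz0 : y + c' • x ≠ 0 := by
      intro h
      apply hindep (-c')
      rw [neg_smul]
      exact eq_neg_of_add_eq_zero_left h
    have hz := hΘ.add_left hy (hΘ.smul_left c' hc'0 hx) hz0
    have hgz : g (y + c' • x) = 0 := by
      simp only [map_add, map_smul, smul_eq_mul, hc']
      field_simp
      ring
    obtain ⟨g'', hg'', hgz''⟩ := hΘ.sym hp hz hw
    obtain ⟨d, rfl⟩ := hline hg hg''
    apply hgz''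
    simp [hgz]
  obtain ⟨x₀, f₀, h₀⟩ := hne
  have hθ : ∀ y, ∃ g, f₀ y ≠ 0 → (Θ y g ∧ g x₀ = - f₀ y) := by
    intro y
    by_cases hy : f₀ y ≠ 0
    · obtain ⟨g, hg, hgx⟩ := hΘ.sym hp h₀ hy
      refine ⟨(- f₀ y / g x₀) • g, fun _ => ⟨hΘ.smul_right _ (div_ne_zero (neg_ne_zero.2 hy) hgx) hg, ?_⟩⟩
      simp only [LinearMap.smul_apply, smul_eq_mul]
      field_simp
    · exact ⟨0, fun h => absurd h hy⟩
  choose θ hθ using hθ
  have hflag0 := hΘ.flag h₀
  have anti : ∀ {y y'}, f₀ y ≠ 0 → f₀ y' ≠ 0 → θ y y' = - θ y' y := by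
    intro y y' hy hy'
    obtain ⟨hy1, hy2⟩ := hθ y hy
    obtain ⟨hy1', hy2'⟩ := hθ y' hy'
    set α := θ y y' / f₀ y with hα
    have h1 := hΘ.conj_smul h₀ hy1' (α / f₀ y')
    have e1 : (α / f₀ y' * f₀ y') = α := div_mul_cancel₀ _ hy'
    have e2 : (α / f₀ y' * θ y' x₀) = - α := by
      rw [hy2']
      field_simp
    have e7 : θ y' - (-α) • f₀ = θ y' + α • f₀ := by
      ext v
      simp
    rw [e1, e2, e7] at h1
    have h2 : θ y (y' + α • x₀) = 0 := by
      simp only [map_add, map_smul, smul_eq_mul, hy2, hα]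
      field_simp
      ring
    by_contra hcon
    have h3 : (θ y' + α • f₀) y ≠ 0 := by
      simp only [LinearMap.add_apply, LinearMap.smul_apply, smul_eq_mul, hα]
      field_simp
      intro h
      apply hcon
      linear_combination h
    obtain ⟨g, hg, hg2⟩ := hΘ.sym hp h1 h3
    obtain ⟨d, rfl⟩ := hline hy1 hg
    apply hg2
    simp [h2]
  -- the basis
  obtain ⟨y₀, hy₀⟩ : ∃ y, f₀ y ≠ 0 := by
    by_contra hcon
    push Not at hcon
    exact hΘ.ne_right h₀ (LinearMap.ext hcon)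
  have hs : ⊤ ≤ Submodule.span (ZMod p) {y | f₀ y ≠ 0} := by
    intro m _
    by_cases hm : f₀ m ≠ 0
    · exact Submodule.subset_span hm
    · push Not at hm
      have h1 : m + y₀ ∈ Submodule.span (ZMod p) {y | f₀ y ≠ 0} :=
        Submodule.subset_span (by simpa [hm] using hy₀)
      have h2 : y₀ ∈ Submodule.span (ZMod p) {y | f₀ y ≠ 0} := Submodule.subset_span hy₀
      simpa using Submodule.sub_mem _ h1 h2
  let b := Basis.ofSpan hs
  have hb : ∀ i, f₀ (b i) ≠ 0 := fun i => Basis.ofSpan_subset hs ⟨i, rfl⟩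
  let L : X →ₗ[ZMod p] Dual (ZMod p) X := b.constr (ZMod p) (fun i => θ (b i))
  have hLb : ∀ i, L (b i) = θ (b i) := fun i => b.constr_basis _ _ i
  have skew : ∀ x y, L x y = - L y x := by
    intro x y
    have h1 : ∀ i y, L (b i) y = - L y (b i) := by
      intro i y
      have : L (b i) = - (LinearMap.flip L (b i)) := by
        refine b.ext fun j => ?_
        simp only [LinearMap.neg_apply, LinearMap.flip_apply, hLb]
        exact anti (hb i) (hb j)
      have h2 := congrArg (fun ψ : Dual (ZMod p) X => ψ y) this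
      simpa using h2
    have : LinearMap.flip L y = - (L y) := by
      refine b.ext fun i => ?_
      simp only [LinearMap.flip_apply, LinearMap.neg_apply]
      exact h1 i y
    have h2 := congrArg (fun ψ : Dual (ZMod p) X => ψ x) this
    simpa using h2
  have hLθ : ∀ {w}, f₀ w ≠ 0 → L w = θ w := by
    intro w hw
    refine b.ext fun j => ?_
    rw [skew, hLb, anti (hb j) hw, neg_neg]
  have halt : ∀ x, L x x = 0 := by
    intro x
    have h1 := skew x x
    have h2 : (2 : ZMod p) * L x x = 0 := by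
      rw [two_mul]
      nth_rw 1 [h1]
      ring
    have h3 : (2 : ZMod p) ≠ 0 := by
      intro h
      have := (ZMod.natCast_eq_zero_iff 2 p).1 (by exact_mod_cast h)
      have hpp := (Fact.out : p.Prime)
      exact hp ((Nat.prime_dvd_prime_iff_eq hpp Nat.prime_two).1 this)
    rcases mul_eq_zero.1 h2 with h | h
    · exact absurd h h3
    · exact h
  have hLinj : ∀ x, L x = 0 → x = 0 := by
    intro m hm
    by_contra hm0
    by_cases hfm : f₀ m ≠ 0
    · rw [hLθ hfm] at hm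
      exact hΘ.ne_right (hθ m hfm).1 hm
    · push Not at hfm
      have h1 : f₀ (y₀ + m) ≠ 0 := by simpa [hfm] using hy₀
      have h2 : θ (y₀ + m) = θ y₀ := by
        rw [← hLθ h1, ← hLθ hy₀, map_add, hm, add_zero]
      have h3 := (hθ _ h1).1
      rw [h2] at h3
      obtain ⟨c, hc⟩ := hinj (hθ _ hy₀).1 h3
      have h4 := congrArg f₀ hc
      simp only [map_add, map_smul, smul_eq_mul, hfm, add_zero] at h4
      have hc1 : c = 1 := by
        have : (c - 1) * f₀ y₀ = 0 := by linear_combination -h4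
        rcases mul_eq_zero.1 this with h | h
        · exact sub_eq_zero.1 h
        · exact absurd h hy₀
      rw [hc1, one_smul] at hc
      exact hm0 (by simpa using hc)
  have hΘL : ∀ {x}, x ≠ 0 → Θ x (L x) := by
    intro m hm0
    by_cases hfm : f₀ m ≠ 0
    · rw [hLθ hfm]
      exact (hθ m hfm).1
    push Not at hfm
    -- find `y₁` with `L m y₁ ≠ 0`
    obtain ⟨y₁, hy₁, hLy₁⟩ : ∃ y₁, f₀ y₁ ≠ 0 ∧ L m y₁ ≠ 0 := by
      by_contra hcon
      push Not at hcon
      apply hm0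
      apply hLinj
      refine b.ext fun j => ?_
      exact hcon _ (hb j)
    have hy₂ : f₀ (y₁ + m) ≠ 0 := by simpa [hfm] using hy₁
    have h1 := (hθ _ hy₁).1
    have h2 := (hθ _ hy₂).1
    set r := L m y₁ with hr
    have e1 : θ (y₁ + m) y₁ = r := by
      rw [← hLθ hy₂, map_add, LinearMap.add_apply, halt, zero_add]
    have e2 : θ y₁ (y₁ + m) = - r := by
      rw [anti hy₁ hy₂, e1]
    have h3 := hΘ.conj_smul h2 h1 (-r⁻¹)
    rw [e1, e2] at h3
    have e3 : (-r⁻¹ * r) = -1 := by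
      rw [neg_mul, inv_mul_cancel₀ hLy₁]
    have e4 : (-r⁻¹ * -r) = 1 := by
      rw [neg_mul_neg, inv_mul_cancel₀ hLy₁]
    rw [e3, e4, neg_smul, one_smul, one_smul] at h3
    have e5 : y₁ + -(y₁ + m) = - m := by abel
    have e6 : θ y₁ - θ (y₁ + m) = - L m := by
      rw [← hLθ hy₁, ← hLθ hy₂, map_add]
      abel
    rw [e5, e6] at h3
    have h4 := hΘ.smul_left (-1) (by simp) (hΘ.smul_right (-1) (by simp) h3)
    simpa using h4
  refine ⟨L, skew, halt, hLinj, fun x f => ⟨fun h => ?_, ?_⟩⟩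
  · have hx := hΘ.ne_left h
    refine ⟨hx, ?_⟩
    obtain ⟨c, hc⟩ := hline (hΘL hx) h
    refine ⟨c, ?_, hc⟩
    rintro rfl
    exact hΘ.ne_right h (by simpa using hc)
  · rintro ⟨hx, c, hc, rfl⟩
    exact hΘ.smul_right c hc (hΘL hx)

/-- The classification. -/
theorem Sys.classify [Finite X] (hΘ : Sys Θ) (hp : p ≠ 2) (hne : ∃ a f, Θ a f) :
    (3 ≤ finrank (ZMod p) X ∧ ∀ x g, x ≠ 0 → g ≠ 0 → g x = 0 → Θ x g) ∨
    ∃ L : X →ₗ[ZMod p] Dual (ZMod p) X, (∀ x y, L x y = - L y x) ∧ (∀ x, L x x = 0) ∧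
      (∀ x, L x = 0 → x = 0) ∧ ∀ x f, Θ x f ↔ x ≠ 0 ∧ ∃ c : ZMod p, c ≠ 0 ∧ f = c • L x := by
  by_cases h : ∃ x, P2 Θ x
  · obtain ⟨x, hx⟩ := h
    exact Or.inl (hΘ.type_one hp hx)
  · push Not at h
    exact Or.inr (hΘ.type_two hp hne h)

end Cfsg.Agent.Lib.McL
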