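import Cfsg.Agent.Lib.McL.Thm

set_option autoImplicit false

namespace Cfsg.Agent.Lib.McL

open Module

variable {p : ℕ} [Fact p.Prime] {V : Type*} [AddCommGroup V] [Module (ZMod p) V]
  {X : Type*} [AddCommGroup X] [Module (ZMod p) X]

/-- The span of the centres of a set of flags. -/
def cen (Γ : Set (V × Dual (ZMod p) V)) : Submodule (ZMod p) V :=
  Submodule.span (ZMod p) ((fun q : V × Dual (ZMod p) V => q.1) '' Γ)

/-- The common kernel of the axes of a set of flags. -/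
def annA (Γ : Set (V × Dual (ZMod p) V)) : Submodule (ZMod p) V where
  carrier := {v | ∀ q ∈ Γ, q.2 v = 0}
  add_mem' := by
    intro a b ha hb q hq
    simp [ha q hq, hb q hq]
  zero_mem' := by
    intro q _
    simp
  smul_mem' := by
    intro c a ha q hq
    simp [ha q hq]

theorem mem_cen {Γ : Set (V × Dual (ZMod p) V)} {q : V × Dual (ZMod p) V} (hq : q ∈ Γ) :
    q.1 ∈ cen Γ := Submodule.subset_span ⟨q, hq, rfl⟩

theorem inv_apply_apply (k : V ≃ₗ[ZMod p] V) (v : V) : k⁻¹ (k v) = v := by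
  change (k⁻¹ * k) v = v
  simp

theorem apply_inv_apply (k : V ≃ₗ[ZMod p] V) (v : V) : k (k⁻¹ v) = v := by
  change (k * k⁻¹) v = v
  simp

theorem sub_mem_cen {Γ : Set (V × Dual (ZMod p) V)} {k : V ≃ₗ[ZMod p] V} (hk : k ∈ genGrp Γ) :
    ∀ v, k v - v ∈ cen Γ := by
  change k ∈ Subgroup.closure _ at hk
  induction hk using Subgroup.closure_induction with
  | mem x hx =>
    obtain ⟨q, hq, hx⟩ := hx
    intro v
    rw [hx, add_sub_cancel_left]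
    exact Submodule.smul_mem _ _ (mem_cen hq)
  | one => intro v; simp
  | mul x y _ _ hx hy =>
    intro v
    rw [LinearEquiv.mul_apply]
    have : x (y v) - v = (x (y v) - y v) + (y v - v) := by abel
    rw [this]
    exact Submodule.add_mem _ (hx _) (hy _)
  | inv x _ hx =>
    intro v
    have := hx (x⁻¹ v)
    rw [apply_inv_apply] at this
    have h2 : x⁻¹ v - v = - (v - x⁻¹ v) := by abel
    rw [h2]
    exact Submodule.neg_mem _ this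

theorem fix_ann {Γ : Set (V × Dual (ZMod p) V)} {k : V ≃ₗ[ZMod p] V} (hk : k ∈ genGrp Γ) :
    ∀ v ∈ annA Γ, k v = v := by
  change k ∈ Subgroup.closure _ at hk
  induction hk using Subgroup.closure_induction with
  | mem x hx =>
    obtain ⟨q, hq, hx⟩ := hx
    intro v hv
    have h0 : q.2 v = 0 := hv q hq
    rw [hx, h0, zero_smul, add_zero]
  | one => intro v _; simp
  | mul x y _ _ hx hy =>
    intro v hv
    rw [LinearEquiv.mul_apply, hy v hv, hx v hv]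
  | inv x _ hx =>
    intro v hv
    have := inv_apply_apply x v
    rwa [hx v hv] at this

theorem cen_stable {Γ : Set (V × Dual (ZMod p) V)} {k : V ≃ₗ[ZMod p] V} (hk : k ∈ genGrp Γ)
    {y : V} (hy : y ∈ cen Γ) : k y ∈ cen Γ := by
  have := Submodule.add_mem _ (sub_mem_cen hk y) hy
  simpa using this

/-- The restriction of an element of the generated group to the span of the centres. -/
def resA {Γ : Set (V × Dual (ZMod p) V)} (k : genGrp Γ) : ↥(cen Γ) →ₗ[ZMod p] ↥(cen Γ) :=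
  (k.1 : V →ₗ[ZMod p] V).restrict (fun _ hy => cen_stable k.2 hy)

@[simp] theorem resA_coe {Γ : Set (V × Dual (ZMod p) V)} (k : genGrp Γ) (y : ↥(cen Γ)) :
    ((resA k y : ↥(cen Γ)) : V) = k.1 y := rfl

theorem resA_mul {Γ : Set (V × Dual (ZMod p) V)} (k k' : genGrp Γ) (y : ↥(cen Γ)) :
    resA (k * k') y = resA k (resA k' y) := rfl

theorem resA_one {Γ : Set (V × Dual (ZMod p) V)} (y : ↥(cen Γ)) :
    resA (1 : genGrp Γ) y = y := rfl

theorem exists_rho {Γ : Set (V × Dual (ZMod p) V)} (π : ↥(cen Γ) →ₗ[ZMod p] X)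
    (hπ : Function.Surjective π) (hker : ∀ y, π y = 0 ↔ (y : V) ∈ annA Γ) :
    ∃ ρ : genGrp Γ →* (X ≃ₗ[ZMod p] X), ∀ k y, ρ k (π y) = π (resA k y) := by
  obtain ⟨s, hs⟩ := π.exists_rightInverse_of_surjective (LinearMap.range_eq_top.2 hπ)
  have hs' : ∀ x, π (s x) = x := fun x => LinearMap.congr_fun hs x
  let M : genGrp Γ → (X →ₗ[ZMod p] X) := fun k => π ∘ₗ resA k ∘ₗ s
  have hM : ∀ k y, M k (π y) = π (resA k y) := by
    intro k y
    change π (resA k (s (π y))) = _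
    have h1 : ((s (π y) - y : ↥(cen Γ)) : V) ∈ annA Γ := by
      rw [← hker]
      simp [hs']
    have h2 : resA k (s (π y)) = resA k y + (s (π y) - y) := by
      apply Subtype.ext
      have := fix_ann k.2 _ h1
      simp only [Submodule.coe_sub, map_sub] at this
      simp only [resA_coe, Submodule.coe_add, Submodule.coe_sub]
      rw [sub_eq_iff_eq_add] at this
      rw [this]
      abel
    rw [h2, map_add, (hker _).2 h1, add_zero]
  have hMM : ∀ k k' x, M k (M k' x) = M (k * k') x := by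
    intro k k' x
    obtain ⟨y, rfl⟩ := hπ x
    rw [hM, hM, hM, resA_mul]
  have hM1 : ∀ x, M 1 x = x := by
    intro x
    obtain ⟨y, rfl⟩ := hπ x
    rw [hM, resA_one]
  let E : genGrp Γ → (X ≃ₗ[ZMod p] X) := fun k =>
    LinearEquiv.ofLinear (M k) (M k⁻¹)
      (LinearMap.ext fun x => by
        simp only [LinearMap.comp_apply, LinearMap.id_apply]
        rw [hMM, mul_inv_cancel, hM1])
      (LinearMap.ext fun x => by
        simp only [LinearMap.comp_apply, LinearMap.id_apply]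
        rw [hMM, inv_mul_cancel, hM1])
  refine ⟨MonoidHom.mk' E (fun k k' => ?_), fun k y => hM k y⟩
  ext x
  exact (hMM k k' x).symm

/-- Elements acting trivially on the quotient have order dividing `p`. -/
theorem pow_p_of_trivial (hp : p ≠ 2) {Γ : Set (V × Dual (ZMod p) V)} {k : V ≃ₗ[ZMod p] V}
    (hk : k ∈ genGrp Γ) (h : ∀ y ∈ cen Γ, k y - y ∈ annA Γ) : k ^ p = 1 := by
  ext v
  set w₁ := k v - v with hw₁
  have hw₁m : w₁ ∈ cen Γ := sub_mem_cen hk v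
  set w₂ := k w₁ - w₁ with hw₂
  have hw₂m : w₂ ∈ annA Γ := h _ hw₁m
  have hkw₂ : k w₂ = w₂ := fix_ann hk _ hw₂m
  have hkv : k v = v + w₁ := by rw [hw₁]; abel
  have hkw₁ : k w₁ = w₁ + w₂ := by rw [hw₂]; abel
  have hpow : ∀ n : ℕ, (k ^ n) v = v + (n : ZMod p) • w₁ + ((n.choose 2 : ℕ) : ZMod p) • w₂ := by
    intro n
    induction n with
    | zero => simp
    | succ n ih =>
      rw [pow_succ', LinearEquiv.mul_apply, ih]
      simp only [map_add, map_smul, hkv, hkw₁, hkw₂, Nat.choose_succ_succ' n 1, Nat.choose_one_right]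
      push_cast
      module
  rw [hpow]
  have hpp := (Fact.out : p.Prime)
  have h2 : ((p.choose 2 : ℕ) : ZMod p) = 0 := by
    rw [ZMod.natCast_eq_zero_iff]
    exact hpp.dvd_choose_self (by norm_num) (by have := hpp.two_le; omega)
  simp [h2]

/-- The data of a quotient of the span of the centres. -/
structure XD (Γ : Set (V × Dual (ZMod p) V)) (X : Type*) [AddCommGroup X] [Module (ZMod p) X] where
  π : ↥(cen Γ) →ₗ[ZMod p] X
  surj : Function.Surjective π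
  ker : ∀ y, π y = 0 ↔ (y : V) ∈ annA Γ
  ρ : genGrp Γ →* (X ≃ₗ[ZMod p] X)
  comp : ∀ k y, ρ k (π y) = π (resA k y)
  inj : Function.Injective ρ

/-- The hypotheses on a component. -/
structure CompM (Γ : Set (V × Dual (ZMod p) V)) : Prop where
  flag : ∀ q ∈ Γ, q.1 ≠ 0 ∧ q.2 ≠ 0 ∧ q.2 q.1 = 0
  partner : ∀ q ∈ Γ, ∃ q' ∈ Γ, q.2 q'.1 ≠ 0 ∧ q'.2 q.1 ≠ 0
  conn : ∀ S : Set V, (∃ q ∈ Γ, q.1 ∈ S) →
      (∀ q ∈ Γ, ∀ q' ∈ Γ, q.1 ∈ S → (q.2 q'.1 ≠ 0 ∨ q'.2 q.1 ≠ 0) → q'.1 ∈ S) → ∀ q ∈ Γ, q.1 ∈ S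
  core : ∀ N : Subgroup (genGrp Γ), N.Normal → IsPGroup p N → N = ⊥
  conj : ∀ k ∈ genGrp Γ, ∀ q ∈ Γ, (k q.1, q.2 ∘ₗ (k⁻¹ : V ≃ₗ[ZMod p] V).toLinearMap) ∈ Γ
  smulR : ∀ q ∈ Γ, ∀ c : ZMod p, c ≠ 0 → (q.1, c • q.2) ∈ Γ
  smulL : ∀ q ∈ Γ, ∀ c : ZMod p, c ≠ 0 → (c • q.1, q.2) ∈ Γ
  ne : Γ.Nonempty

/-- Build the data. -/
theorem CompM.exists_XD (hp : p ≠ 2) {Γ : Set (V × Dual (ZMod p) V)} (hC : CompM Γ)
    (π : ↥(cen Γ) →ₗ[ZMod p] X) (hπ : Function.Surjective π)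
    (hker : ∀ y, π y = 0 ↔ (y : V) ∈ annA Γ) : ∃ D : XD Γ X, D.π = π := by
  obtain ⟨ρ, hρ⟩ := exists_rho π hπ hker
  refine ⟨⟨π, hπ, hker, ρ, hρ, ?_⟩, rfl⟩
  apply (MonoidHom.ker_eq_bot_iff ρ).1
  apply hC.core _ inferInstance
  rintro ⟨k, hk⟩
  refine ⟨1, Subtype.ext (Subtype.ext ?_)⟩
  simp only [pow_one, Subgroup.coe_pow, Subgroup.coe_one]
  refine pow_p_of_trivial hp k.2 fun y hy => ?_
  have h1 := hρ k ⟨y, hy⟩
  rw [MonoidHom.mem_ker] at hk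
  rw [hk] at h1
  have h2 : π (resA k ⟨y, hy⟩ - ⟨y, hy⟩) = 0 := by
    rw [map_sub, ← h1]
    simp
  exact (hker _).1 h2

namespace XD

variable {Γ : Set (V × Dual (ZMod p) V)} (D : XD Γ X)

theorem exists_axis {q : V × Dual (ZMod p) V} (hq : q ∈ Γ) :
    ∃ φ : Dual (ZMod p) X, ∀ y, φ (D.π y) = q.2 y := by
  obtain ⟨s, hs⟩ := D.π.exists_rightInverse_of_surjective (LinearMap.range_eq_top.2 D.surj)
  have hs' : ∀ x, D.π (s x) = x := fun x => LinearMap.congr_fun hs x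
  refine ⟨q.2 ∘ₗ (cen Γ).subtype ∘ₗ s, fun y => ?_⟩
  have h1 : ((s (D.π y) - y : ↥(cen Γ)) : V) ∈ annA Γ := by
    rw [← D.ker]
    simp [hs']
  have h2 := h1 q hq
  simp only [Submodule.coe_sub, map_sub, sub_eq_zero] at h2
  simpa using h2

/-- The set of induced flags. -/
def bar : Set (X × Dual (ZMod p) X) :=
  {r | ∃ q ∈ Γ, ∃ ha : q.1 ∈ cen Γ, r.1 = D.π ⟨q.1, ha⟩ ∧ ∀ y, r.2 (D.π y) = q.2 y}

theorem rho_tv {u : genGrp Γ} {q : V × Dual (ZMod p) V} (hq : q ∈ Γ) (hu : ∀ v, u.1 v = v + q.2 v • q.1)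
    {φ : Dual (ZMod p) X} (hφ : ∀ y, φ (D.π y) = q.2 y) (x : X) :
    D.ρ u x = x + φ x • D.π ⟨q.1, mem_cen hq⟩ := by
  obtain ⟨y, rfl⟩ := D.surj x
  rw [D.comp, hφ]
  have : resA u y = y + q.2 y • ⟨q.1, mem_cen hq⟩ := by
    apply Subtype.ext
    simp [hu]
  rw [this, map_add, map_smul]

theorem bar_eq_range (hC : CompM Γ) : genGrp D.bar = D.ρ.range := by
  apply le_antisymm
  · apply (Subgroup.closure_le _).2
    rintro e ⟨r, ⟨q, hq, ha, hr1, hr2⟩, he⟩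
    have hflag := (hC.flag q hq).2.2
    refine ⟨⟨LinearEquiv.transvection hflag, mem_genGrp_of_flag hq hflag⟩, ?_⟩
    ext x
    rw [D.rho_tv hq (fun v => LinearEquiv.transvection.apply hflag v) hr2, he, hr1]
  · have key : ∀ k (hk : k ∈ genGrp Γ), D.ρ ⟨k, hk⟩ ∈ genGrp D.bar := by
      intro k hk
      change k ∈ Subgroup.closure _ at hk
      induction hk using Subgroup.closure_induction with
      | mem x hx =>
        obtain ⟨q, hq, hx⟩ := hx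
        obtain ⟨φ, hφ⟩ := D.exists_axis hq
        refine Subgroup.subset_closure ⟨(D.π ⟨q.1, mem_cen hq⟩, φ), ⟨q, hq, mem_cen hq, rfl, hφ⟩, fun v => ?_⟩
        exact D.rho_tv hq hx hφ v
      | one =>
        have h1 : D.ρ ⟨1, Subgroup.one_mem _⟩ = 1 := map_one D.ρ
        exact h1 ▸ (genGrp D.bar).one_mem
      | mul x y hx hy ihx ihy =>
        have h1 : D.ρ ⟨x * y, Subgroup.mul_mem _ hx hy⟩ = D.ρ ⟨x, hx⟩ * D.ρ ⟨y, hy⟩ :=
          map_mul D.ρ ⟨x, hx⟩ ⟨y, hy⟩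
        exact h1 ▸ (genGrp D.bar).mul_mem ihx ihy
      | inv x hx ih =>
        have h1 : D.ρ ⟨x⁻¹, Subgroup.inv_mem _ hx⟩ = (D.ρ ⟨x, hx⟩)⁻¹ := map_inv D.ρ ⟨x, hx⟩
        exact h1 ▸ (genGrp D.bar).inv_mem ih
    rintro _ ⟨⟨k, hk⟩, rfl⟩
    exact key k hk

theorem classify [Finite X] (hC : CompM Γ) (hp : p ≠ 2) :
    (3 ≤ finrank (ZMod p) X ∧ (∀ (x : X) (φ : Dual (ZMod p) X), x ≠ 0 → φ ≠ 0 → φ x = 0 → ∃ k, ∀ v, D.ρ k v = v + φ v • x) ∧
      ∀ e : X ≃ₗ[ZMod p] X, e ∈ D.ρ.range ↔ LinearMap.det (e : X →ₗ[ZMod p] X) = 1) ∨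
    ∃ L : X →ₗ[ZMod p] Dual (ZMod p) X, (∀ x y, L x y = - L y x) ∧ (∀ x, L x x = 0) ∧
      (∀ x, L x = 0 → x = 0) ∧
      ∀ e : X ≃ₗ[ZMod p] X, e ∈ D.ρ.range ↔ ∀ x y, L (e x) (e y) = L x y := by
  have hrange := D.bar_eq_range hC
  have hbarflag : ∀ r ∈ D.bar, r.1 ≠ 0 ∧ r.2 ≠ 0 ∧ r.2 r.1 = 0 := by
    rintro r ⟨q, hq, ha, hr1, hr2⟩
    obtain ⟨q', hq', h1, h2⟩ := hC.partner q hq
    refine ⟨?_, ?_, ?_⟩
    · rw [hr1]
      intro h0
      exact h2 ((D.ker _).1 h0 q' hq')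
    · intro h0
      apply h1
      have := hr2 ⟨q'.1, mem_cen hq'⟩
      rw [h0] at this
      exact this.symm
    · rw [hr1, hr2]
      exact (hC.flag q hq).2.2
  have hcore : ∀ N : Subgroup (genGrp D.bar), N.Normal → IsPGroup p N → N = ⊥ := by
    intro N hN hNp
    let f : genGrp Γ →* genGrp D.bar := D.ρ.codRestrict _ (fun k => by rw [hrange]; exact ⟨k, rfl⟩)
    have hf : Function.Injective f := fun a b hab => D.inj (congrArg Subtype.val hab)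
    have hbot := hC.core (N.comap f) (hN.comap f) (hNp.comap_of_injective f hf)
    rw [eq_bot_iff]
    rintro ⟨n, hn⟩ hnN
    have hn' : n ∈ D.ρ.range := hrange ▸ hn
    obtain ⟨k, hk⟩ := hn'
    have hkf : f k = ⟨n, hn⟩ := Subtype.ext hk
    have hk1 : k ∈ N.comap f := by
      rw [Subgroup.mem_comap, hkf]
      exact hnN
    rw [hbot, Subgroup.mem_bot] at hk1
    rw [Subgroup.mem_bot, ← hkf, hk1, map_one]
  have hconn : ∀ S : Set X, (∃ r ∈ D.bar, r.1 ∈ S) →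
      (∀ r ∈ D.bar, ∀ r' ∈ D.bar, r.1 ∈ S → (r.2 r'.1 ≠ 0 ∨ r'.2 r.1 ≠ 0) → r'.1 ∈ S) →
      ∀ r ∈ D.bar, r.1 ∈ S := by
    rintro S ⟨r₀, ⟨q₀, hq₀, ha₀, hr₀1, -⟩, hr₀S⟩ hcl r ⟨q, hq, ha, hr1, -⟩
    have key := hC.conn {a | ∃ ha : a ∈ cen Γ, D.π ⟨a, ha⟩ ∈ S} ⟨q₀, hq₀, ha₀, hr₀1 ▸ hr₀S⟩ (by
      rintro q₁ hq₁ q₂ hq₂ ⟨ha₁, hS₁⟩ hnc
      obtain ⟨φ₁, hφ₁⟩ := D.exists_axis hq₁
      obtain ⟨φ₂, hφ₂⟩ := D.exists_axis hq₂
      refine ⟨mem_cen hq₂, hcl (D.π ⟨q₁.1, ha₁⟩, φ₁) ⟨q₁, hq₁, ha₁, rfl, hφ₁⟩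
        (D.π ⟨q₂.1, mem_cen hq₂⟩, φ₂) ⟨q₂, hq₂, mem_cen hq₂, rfl, hφ₂⟩ hS₁ ?_⟩
      simp only [hφ₁, hφ₂]
      exact hnc)
    obtain ⟨_, h⟩ := key q hq
    rw [hr1]
    exact h
  have hne : D.bar.Nonempty := by
    obtain ⟨q, hq⟩ := hC.ne
    obtain ⟨φ, hφ⟩ := D.exists_axis hq
    exact ⟨(D.π ⟨q.1, mem_cen hq⟩, φ), q, hq, mem_cen hq, rfl, hφ⟩
  have hspan : Submodule.span (ZMod p) ((fun r : X × Dual (ZMod p) X => r.1) '' D.bar) = ⊤ := by
    rw [eq_top_iff]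
    rintro x -
    obtain ⟨⟨y, hy⟩, rfl⟩ := D.surj x
    induction hy using Submodule.span_induction with
    | mem v hv =>
      obtain ⟨q, hq, rfl⟩ := hv
      obtain ⟨φ, hφ⟩ := D.exists_axis hq
      exact Submodule.subset_span ⟨(D.π ⟨q.1, mem_cen hq⟩, φ), ⟨q, hq, mem_cen hq, rfl, hφ⟩, rfl⟩
    | zero =>
      have h1 : D.π ⟨0, Submodule.zero_mem _⟩ = 0 := map_zero D.π
      exact h1 ▸ Submodule.zero_mem _
    | add a b ha hb iha ihb =>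
      have h1 : D.π ⟨a + b, Submodule.add_mem _ ha hb⟩ = D.π ⟨a, ha⟩ + D.π ⟨b, hb⟩ :=
        map_add D.π ⟨a, ha⟩ ⟨b, hb⟩
      exact h1 ▸ Submodule.add_mem _ iha ihb
    | smul c a ha iha =>
      have h1 : D.π ⟨c • a, Submodule.smul_mem _ c ha⟩ = c • D.π ⟨a, ha⟩ :=
        map_smul D.π c ⟨a, ha⟩
      exact h1 ▸ Submodule.smul_mem _ c iha
  have hsep : ∀ w : X, w ≠ 0 → ∃ r ∈ D.bar, r.2 w ≠ 0 := by
    intro w hw
    obtain ⟨y, rfl⟩ := D.surj w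
    by_contra hcon
    push Not at hcon
    apply hw
    rw [D.ker]
    intro q hq
    obtain ⟨φ, hφ⟩ := D.exists_axis hq
    have := hcon (D.π ⟨q.1, mem_cen hq⟩, φ) ⟨q, hq, mem_cen hq, rfl, hφ⟩
    simpa [hφ] using this
  rcases classify_group hp D.bar hbarflag hcore hconn hne hspan hsep with ⟨h3, hall, hdet⟩ | ⟨L, h1, h2, h3, -, h5⟩
  · refine Or.inl ⟨h3, fun x φ hx hφ hφx => ?_, fun e => by rw [← hrange]; exact hdet e⟩
    obtain ⟨_, _, _, u, huG, hu⟩ := hall x φ hx hφ hφx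
    rw [hrange] at huG
    obtain ⟨k, rfl⟩ := huG
    exact ⟨k, hu⟩
  · exact Or.inr ⟨L, h1, h2, h3, fun e => by rw [← hrange]; exact h5 e⟩

end XD

end Cfsg.Agent.Lib.McL
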