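import Mathlib

set_option autoImplicit false

namespace Cfsg.Agent.Lib.McL

open Module

variable {p : ℕ} [Fact p.Prime] {X : Type*} [AddCommGroup X] [Module (ZMod p) X]

/-- An abstract system of transvection flags on `X`. -/
structure Sys (Θ : X → Dual (ZMod p) X → Prop) : Prop where
  ne_left : ∀ {a f}, Θ a f → a ≠ 0
  ne_right : ∀ {a f}, Θ a f → f ≠ 0
  flag : ∀ {a f}, Θ a f → f a = 0
  conj : ∀ {a f b g}, Θ a f → Θ b g → Θ (b + f b • a) (g - g a • f)
  smul_right : ∀ {a f} (c : ZMod p), c ≠ 0 → Θ a f → Θ a (c • f)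
  smul_left : ∀ {a f} (c : ZMod p), c ≠ 0 → Θ a f → Θ (c • a) f
  add_right : ∀ {a f f'}, Θ a f → Θ a f' → f + f' ≠ 0 → Θ a (f + f')
  add_left : ∀ {a a' f}, Θ a f → Θ a' f → a + a' ≠ 0 → Θ (a + a') f
  partner : ∀ {a f}, Θ a f → ∃ b g, Θ b g ∧ f b ≠ 0 ∧ g a ≠ 0
  conn : ∀ S : Set X, (∃ a f, Θ a f ∧ a ∈ S) →
    (∀ {e φ y η}, e ∈ S → Θ e φ → Θ y η → (φ y ≠ 0 ∨ η e ≠ 0) → y ∈ S) →
    ∀ {y η}, Θ y η → y ∈ S
  sep : ∀ w : X, w ≠ 0 → ∃ e φ, Θ e φ ∧ φ w ≠ 0
  span : Submodule.span (ZMod p) {x | ∃ f, Θ x f} = ⊤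

theorem exists_ne_ne (hp : p ≠ 2) (a b : ZMod p) : ∃ c, c ≠ a ∧ c ≠ b := by
  haveI : NeZero p := ⟨(Fact.out : p.Prime).ne_zero⟩
  have h3 : 2 < Fintype.card (ZMod p) := by
    rw [ZMod.card]
    have := (Fact.out : p.Prime).two_le
    omega
  obtain ⟨c, hc⟩ : ∃ c, c ∉ ({a, b} : Finset (ZMod p)) := by
    by_contra h
    push Not at h
    have : (Finset.univ : Finset (ZMod p)) ⊆ {a, b} := fun x _ => h x
    have h2 := Finset.card_le_card this
    have h4 : ({a, b} : Finset (ZMod p)).card ≤ 2 := Finset.card_le_two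
    rw [Finset.card_univ] at h2
    omega
  simp only [Finset.mem_insert, Finset.mem_singleton, not_or] at hc
  exact ⟨c, hc.1, hc.2⟩

section
variable {Θ : X → Dual (ZMod p) X → Prop} (hΘ : Sys Θ)
include hΘ

/-- The conjugation rule with a scalar. -/
theorem Sys.conj_smul {a f b g} (ha : Θ a f) (hb : Θ b g) (c : ZMod p) :
    Θ (b + (c * f b) • a) (g - (c * g a) • f) := by
  by_cases hc : c = 0
  · subst hc
    simpa using hb
  · have h := hΘ.conj (hΘ.smul_right c hc ha) hb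
    have e1 : (c • f) b = c * f b := by simp
    have e2 : g a • c • f = (c * g a) • f := by rw [smul_smul, mul_comm]
    rwa [e1, e2] at h

/-- Rule H. -/
theorem Sys.ruleH {a f b g} (ha : Θ a f) (hb : Θ b g) (hfb : f b ≠ 0) (hga : g a = 0) : Θ a g := by
  have h1 := hΘ.conj ha hb
  rw [hga, zero_smul, sub_zero] at h1
  have h2 := hΘ.smul_left (-1) (by simp) hb
  have h3 : b + f b • a + (-1 : ZMod p) • b = f b • a := by
    simp only [neg_smul, one_smul]; abel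
  have hane := hΘ.ne_left ha
  have h4 := hΘ.add_left h1 h2 (by rw [h3]; exact smul_ne_zero hfb hane)
  rw [h3] at h4
  have h5 := hΘ.smul_left (f b)⁻¹ (inv_ne_zero hfb) h4
  rwa [smul_smul, inv_mul_cancel₀ hfb, one_smul] at h5

/-- The two-path lemma. -/
theorem Sys.two_path {a f e φ} (ha : Θ a f) (he : Θ e φ) :
    f e ≠ 0 ∨ ∃ u ξ, Θ u ξ ∧ f u ≠ 0 ∧ ξ e ≠ 0 := by
  let S : Set X := {y | f y ≠ 0 ∨ ∃ u ξ, Θ u ξ ∧ f u ≠ 0 ∧ ξ y ≠ 0}
  have fwd : ∀ {e φ y}, e ∈ S → Θ e φ → φ y ≠ 0 → y ∈ S := by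
    intro e φ y heS he hφy
    by_cases hfe : f e ≠ 0
    · exact Or.inr ⟨e, φ, he, hfe, hφy⟩
    · push Not at hfe
      rcases heS with h | ⟨u, ξ, hu, hfu, hξe⟩
      · exact absurd hfe h
      · by_cases hξy : ξ y ≠ 0
        · exact Or.inr ⟨u, ξ, hu, hfu, hξy⟩
        · push Not at hξy
          refine Or.inr ⟨_, _, hΘ.conj hu he, ?_, ?_⟩
          · simp only [map_add, map_smul, smul_eq_mul, hfe, zero_add]
            exact mul_ne_zero hξe hfu
          · simp only [LinearMap.sub_apply, LinearMap.smul_apply, hξy, smul_eq_mul, mul_zero,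
              sub_zero]
            exact hφy
  have hS := hΘ.conn S ?_ ?_ he
  · exact hS
  · obtain ⟨b, g, hb, hfb, hga⟩ := hΘ.partner ha
    exact ⟨a, f, ha, Or.inr ⟨b, g, hb, hfb, hga⟩⟩
  · intro e φ y η heS he hy h
    by_cases hφy : φ y ≠ 0
    · exact fwd heS he hφy
    · push Not at hφy
      have hηe : η e ≠ 0 := by
        rcases h with h | h
        · exact absurd hφy h
        · exact h
      have hyφ := hΘ.ruleH hy he hηe hφy
      obtain ⟨c, h', hc, hφc, hh'y⟩ := hΘ.partner hyφ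
      exact fwd (fwd heS he hφc) hc hh'y

/-- Double separation. -/
theorem Sys.double_sep (hp : p ≠ 2) {y w : X} (hy : y ≠ 0) (hw : w ≠ 0) :
    ∃ e ψ, Θ e ψ ∧ ψ y ≠ 0 ∧ ψ w ≠ 0 := by
  obtain ⟨e₁, φ₁, h₁, hφ₁⟩ := hΘ.sep y hy
  obtain ⟨e₂, φ₂, h₂, hφ₂⟩ := hΘ.sep w hw
  by_cases h1w : φ₁ w ≠ 0
  · exact ⟨e₁, φ₁, h₁, hφ₁, h1w⟩
  by_cases h2y : φ₂ y ≠ 0
  · exact ⟨e₂, φ₂, h₂, h2y, hφ₂⟩
  push Not at h1w h2y
  by_cases h21 : φ₂ e₁ ≠ 0
  · refine ⟨_, _, hΘ.conj h₁ h₂, ?_, ?_⟩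
    · simp only [LinearMap.sub_apply, LinearMap.smul_apply, h2y, smul_eq_mul, zero_sub, neg_ne_zero]
      exact mul_ne_zero h21 hφ₁
    · simp only [LinearMap.sub_apply, LinearMap.smul_apply, h1w, smul_eq_mul, mul_zero, sub_zero]
      exact hφ₂
  push Not at h21
  rcases hΘ.two_path h₂ h₁ with h | ⟨u, ξ, hu, hφ₂u, hξe⟩
  · exact absurd h21 h
  -- choose a scalar
  obtain ⟨c, hc0, hcA⟩ : ∃ c : ZMod p, c ≠ 0 ∧ φ₁ y - c * φ₁ u * ξ y ≠ 0 := by
    by_cases hB : φ₁ u * ξ y = 0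
    · refine ⟨1, one_ne_zero, ?_⟩
      rw [one_mul, hB, sub_zero]
      exact hφ₁
    · obtain ⟨c, h1, h2⟩ := exists_ne_ne hp 0 (φ₁ y / (φ₁ u * ξ y))
      refine ⟨c, h1, ?_⟩
      intro h
      apply h2
      rw [eq_div_iff hB]
      linear_combination -h
  have h3 := hΘ.conj_smul hu h₁ c
  set e' := e₁ + (c * ξ e₁) • u with he'
  set φ' := φ₁ - (c * φ₁ u) • ξ with hφ'
  have hφ'y : φ' y ≠ 0 := by
    simp only [hφ', LinearMap.sub_apply, LinearMap.smul_apply, smul_eq_mul]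
    exact hcA
  have h2e' : φ₂ e' ≠ 0 := by
    simp only [he', map_add, map_smul, smul_eq_mul, h21, zero_add]
    exact mul_ne_zero (mul_ne_zero hc0 hξe) hφ₂u
  by_cases hφ'w : φ' w ≠ 0
  · exact ⟨e', φ', h3, hφ'y, hφ'w⟩
  push Not at hφ'w
  refine ⟨_, _, hΘ.conj h3 h₂, ?_, ?_⟩
  · simp only [LinearMap.sub_apply, LinearMap.smul_apply, h2y, smul_eq_mul, zero_sub, neg_ne_zero]
    exact mul_ne_zero h2e' hφ'y
  · simp only [LinearMap.sub_apply, LinearMap.smul_apply, hφ'w, smul_eq_mul, mul_zero, sub_zero]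
    exact hφ₂

omit hΘ in
/-- One move of the orbit relation. -/
def Mv (Θ : X → Dual (ZMod p) X → Prop) (x y : X) : Prop :=
  ∃ u ξ, Θ u ξ ∧ y = x + ξ x • u

omit hΘ in
/-- The orbit relation. -/
def Reach (Θ : X → Dual (ZMod p) X → Prop) (x y : X) : Prop :=
  Relation.ReflTransGen (Mv Θ) x y

theorem Sys.reach_line {u ξ x} (hu : Θ u ξ) (hx : ξ x ≠ 0) (κ : ZMod p) :
    Reach Θ x (x + κ • u) := by
  by_cases hκ : κ = 0
  · subst hκ
    rw [zero_smul, add_zero]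
    exact Relation.ReflTransGen.refl
  · have h1 := hΘ.smul_right (κ / ξ x) (div_ne_zero hκ hx) hu
    refine Relation.ReflTransGen.single ⟨u, _, h1, ?_⟩
    simp only [LinearMap.smul_apply, smul_eq_mul]
    rw [div_mul_cancel₀ _ hx]

/-- The key addition lemma. -/
theorem Sys.reach_add (hp : p ≠ 2) {y a f} (hy : y ≠ 0) (ha : Θ a f) (hya : y + a ≠ 0) :
    Reach Θ y (y + a) := by
  by_cases hfy : f y ≠ 0
  · simpa using hΘ.reach_line ha hfy 1
  push Not at hfy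
  obtain ⟨e, ψ, he, hψy, hψw⟩ := hΘ.double_sep hp hy hya
  obtain ⟨x, ξ', hx, hfx, hξy, hξw⟩ : ∃ x ξ', Θ x ξ' ∧ f x ≠ 0 ∧ ξ' y ≠ 0 ∧ ξ' (y + a) ≠ 0 := by
    by_cases hfe : f e ≠ 0
    · exact ⟨e, ψ, he, hfe, hψy, hψw⟩
    push Not at hfe
    rcases hΘ.two_path ha he with h | ⟨u, ξ, hu, hfu, hξe⟩
    · exact absurd hfe h
    obtain ⟨c, hc1, hc2⟩ := exists_ne_ne hp (ξ y / (ξ e * ψ y)) (ξ (y + a) / (ξ e * ψ (y + a)))
    have h3 := hΘ.conj_smul he hu c
    refine ⟨_, _, h3, ?_, ?_, ?_⟩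
    · simp only [map_add, map_smul, smul_eq_mul, hfe, mul_zero, add_zero]
      exact hfu
    · simp only [LinearMap.sub_apply, LinearMap.smul_apply, smul_eq_mul]
      intro h
      apply hc1
      have : ξ e * ψ y ≠ 0 := mul_ne_zero hξe hψy
      field_simp
      linear_combination -h
    · simp only [LinearMap.sub_apply, LinearMap.smul_apply, smul_eq_mul]
      intro h
      apply hc2
      have : ξ e * ψ (y + a) ≠ 0 := mul_ne_zero hξe hψw
      field_simp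
      linear_combination -h
  have h1 := hΘ.reach_line hx hξy 1
  rw [one_smul] at h1
  have h2 := hΘ.reach_line (x := y + x) ha (by rw [map_add, hfy, zero_add]; exact hfx) 1
  rw [one_smul] at h2
  have h3 := hΘ.reach_line (x := y + x + a) hx (by
    have : y + x + a = (y + a) + x := by abel
    rw [this, map_add, hΘ.flag hx, add_zero]; exact hξw) (-1)
  have h4 : y + x + a + (-1 : ZMod p) • x = y + a := by
    simp only [neg_smul, one_smul]; abel
  rw [h4] at h3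
  exact (h1.trans h2).trans h3

theorem Sys.center_of_reach {x y} (h : Reach Θ x y) (hx : ∃ f, Θ x f) : ∃ f, Θ y f := by
  induction h with
  | refl => exact hx
  | tail _ h ih =>
    obtain ⟨u, ξ, hu, rfl⟩ := h
    obtain ⟨f, hf⟩ := ih
    exact ⟨_, hΘ.conj hu hf⟩

/-- Every nonzero vector is a center. -/
theorem Sys.center_all (hp : p ≠ 2) {x : X} (hx : x ≠ 0) : ∃ f, Θ x f := by
  have key : ∀ x : X, x = 0 ∨ ∃ f, Θ x f := by
    intro x
    have hmem : x ∈ Submodule.span (ZMod p) {x | ∃ f, Θ x f} := by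
      rw [hΘ.span]; trivial
    induction hmem using Submodule.span_induction with
    | mem x h => exact Or.inr h
    | zero => exact Or.inl rfl
    | add y a _ _ hy ha =>
      rcases hy with rfl | hy
      · simpa using ha
      rcases ha with rfl | ⟨f, hf⟩
      · simpa using Or.inr hy
      by_cases hya : y + a = 0
      · exact Or.inl hya
      · exact Or.inr (hΘ.center_of_reach (hΘ.reach_add hp (hΘ.ne_left hy.choose_spec) hf hya) hy)
    | smul c y _ hy =>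
      by_cases hc : c = 0
      · subst hc
        simp
      rcases hy with rfl | ⟨f, hf⟩
      · simp
      · exact Or.inr ⟨f, hΘ.smul_left c hc hf⟩
  rcases key x with h | h
  · exact absurd h hx
  · exact h

theorem Sys.reach_all (hp : p ≠ 2) {x y : X} (hx : x ≠ 0) (hy : y ≠ 0) : Reach Θ x y := by
  by_cases h : y = x
  · subst h
    exact Relation.ReflTransGen.refl
  obtain ⟨f, hf⟩ := hΘ.center_all hp (sub_ne_zero.2 h)
  have := hΘ.reach_add hp hx hf (by simpa using hy)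
  simpa using this

end

end Cfsg.Agent.Lib.McL
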