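import Cfsg.Agent.Lib.McL.Class2
import Cfsg.Agent.S0199

set_option autoImplicit false

namespace Cfsg.Agent.Lib.McL

open Module

variable {p : ℕ} [Fact p.Prime] {X : Type*} [AddCommGroup X] [Module (ZMod p) X]

/-- The transvection flags of a subgroup of `GL(X)`. -/
def Fl (G : Subgroup (X ≃ₗ[ZMod p] X)) (a : X) (f : Dual (ZMod p) X) : Prop :=
  a ≠ 0 ∧ f ≠ 0 ∧ f a = 0 ∧ ∃ u ∈ G, ∀ v, u v = v + f v • a

theorem tv_inv {u : X ≃ₗ[ZMod p] X} {a : X} {f : Dual (ZMod p) X} (hfa : f a = 0)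
    (hu : ∀ v, u v = v + f v • a) (v : X) : u⁻¹ v = v - f v • a := by
  have h1 : u (v - f v • a) = v := by
    rw [hu]
    simp [hfa]
  have h2 : u⁻¹ (u (v - f v • a)) = v - f v • a := by
    change (u⁻¹ * u) (v - f v • a) = _
    simp
  rwa [h1] at h2

theorem tv_conj {u w : X ≃ₗ[ZMod p] X} {a b : X} {f g : Dual (ZMod p) X} (hfa : f a = 0)
    (hu : ∀ v, u v = v + f v • a) (hw : ∀ v, w v = v + g v • b) (v : X) :
    (u * w * u⁻¹) v = v + (g - g a • f) v • (b + f b • a) := by
  change u (w (u⁻¹ v)) = _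
  rw [tv_inv hfa hu, hw, hu]
  simp only [map_add, map_sub, map_smul, smul_eq_mul, hfa, LinearMap.sub_apply,
    LinearMap.smul_apply, mul_zero, sub_zero, smul_add, smul_sub, smul_smul, sub_smul, add_smul]
  abel_nf
  module

theorem tv_pow {u : X ≃ₗ[ZMod p] X} {a : X} {f : Dual (ZMod p) X} (hfa : f a = 0)
    (hu : ∀ v, u v = v + f v • a) (n : ℕ) (v : X) : (u ^ n) v = v + ((n : ZMod p) * f v) • a := by
  induction n with
  | zero => simp
  | succ n ih =>
    rw [pow_succ', LinearEquiv.mul_apply, ih, hu]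
    simp only [map_add, map_smul, smul_eq_mul, hfa, mul_zero, add_zero]
    push_cast
    module

theorem tv_pow_p {u : X ≃ₗ[ZMod p] X} {a : X} {f : Dual (ZMod p) X} (hfa : f a = 0)
    (hu : ∀ v, u v = v + f v • a) : u ^ p = 1 := by
  ext v
  rw [tv_pow hfa hu]
  simp

theorem Fl.smul_scalar {G : Subgroup (X ≃ₗ[ZMod p] X)} {u : X ≃ₗ[ZMod p] X} {a : X}
    {f : Dual (ZMod p) X} (hfa : f a = 0) (huG : u ∈ G) (hu : ∀ v, u v = v + f v • a) (c : ZMod p) :
    ∃ w ∈ G, ∀ v, w v = v + (c * f v) • a := by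
  haveI : NeZero p := ⟨(Fact.out : p.Prime).ne_zero⟩
  refine ⟨u ^ c.val, pow_mem huG _, fun v => ?_⟩
  rw [tv_pow hfa hu, ZMod.natCast_zmod_val]

/-- Two transvections that commute have `f b = 0`. -/
theorem tv_comm {u w : X ≃ₗ[ZMod p] X} {a b : X} {f g : Dual (ZMod p) X} (hfa : f a = 0)
    (ha : a ≠ 0) (hg : g ≠ 0)
    (hu : ∀ v, u v = v + f v • a) (hw : ∀ v, w v = v + g v • b) (hc : u * w = w * u) : f b = 0 := by
  by_contra hfb
  obtain ⟨z, hz⟩ : ∃ z, g z ≠ 0 := by
    by_contra hcon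
    push Not at hcon
    exact hg (LinearMap.ext hcon)
  have h1 : (u * w) z = (w * u) z := by rw [hc]
  simp only [LinearEquiv.mul_apply, hu, hw, map_add, map_smul, smul_eq_mul] at h1
  have h2 : (g z * f b) • a = (f z * g a) • b := by
    have : z + g z • b + (f z + g z * f b) • a - (z + f z • a + (g z + f z * g a) • b) = 0 :=
      sub_eq_zero.2 h1
    have h3 : (g z * f b) • a - (f z * g a) • b = 0 := by
      rw [← this]
      module
    exact sub_eq_zero.1 h3
  have h3 : g z * f b ≠ 0 := mul_ne_zero hz hfb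
  -- `a` is a multiple of `b`
  have h4 : a = ((g z * f b)⁻¹ * (f z * g a)) • b := by
    rw [mul_smul, ← h2, smul_smul, inv_mul_cancel₀ h3, one_smul]
  have h5 := congrArg f h4
  simp only [map_smul, smul_eq_mul, hfa] at h5
  -- hence the multiple is zero and so `a = 0`.
  have h6 : (g z * f b)⁻¹ * (f z * g a) = 0 := by
    rcases mul_eq_zero.1 h5.symm with h | h
    · exact h
    · exact absurd h hfb
  rw [h6, zero_smul] at h4
  exact ha h4

theorem Fl.basic_conj {G : Subgroup (X ≃ₗ[ZMod p] X)} {a b : X} {f g : Dual (ZMod p) X}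
    (ha : Fl G a f) (hb : Fl G b g) : Fl G (b + f b • a) (g - g a • f) := by
  obtain ⟨ha0, hf0, hfa, u, huG, hu⟩ := ha
  obtain ⟨hb0, hg0, hgb, w, hwG, hw⟩ := hb
  have hub : b + f b • a = u b := (hu b).symm
  have hinj : (g - g a • f) ∘ₗ (u : X →ₗ[ZMod p] X) = g := by
    ext v
    simp [hu, hfa]
    ring
  refine ⟨?_, ?_, ?_, _, G.mul_mem (G.mul_mem huG hwG) (G.inv_mem huG), tv_conj hfa hu hw⟩
  · rw [hub]
    simpa using hb0
  · intro h
    rw [h] at hinj
    exact hg0 (by rw [← hinj]; simp)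
  · simp [hfa, hgb]
    ring

/-- Partner lemma: two transvections with `f b = 0` generate a group of exponent `p`. -/
theorem closure_pair_pow (hp : p ≠ 2) {a b : X} {f h : Dual (ZMod p) X} (hfa : f a = 0)
    (hhb : h b = 0) (hfb : f b = 0) {t s : X ≃ₗ[ZMod p] X}
    (ht : ∀ v, t v = v + f v • a) (hs : ∀ v, s v = v + h v • b) {w : X ≃ₗ[ZMod p] X}
    (hw : w ∈ Subgroup.closure ({t, s} : Set (X ≃ₗ[ZMod p] X))) : w ^ p = 1 := by
  -- the normal form of elements of the closure
  have form : ∃ α β γ : ZMod p, ∀ v, w v = v + (α * f v) • a + (β * h v) • b + (γ * f v) • b := by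
    induction hw using Subgroup.closure_induction with
    | mem x hx =>
      rcases hx with rfl | hx
      · exact ⟨1, 0, 0, fun v => by rw [ht]; simp⟩
      · rw [Set.mem_singleton_iff] at hx
        subst hx
        exact ⟨0, 1, 0, fun v => by rw [hs]; simp⟩
    | one => exact ⟨0, 0, 0, fun v => by simp⟩
    | mul x y _ _ hx hy =>
      obtain ⟨α₁, β₁, γ₁, h₁⟩ := hx
      obtain ⟨α₂, β₂, γ₂, h₂⟩ := hy
      refine ⟨α₁ + α₂, β₁ + β₂, γ₁ + γ₂ + β₁ * α₂ * h a, fun v => ?_⟩
      rw [LinearEquiv.mul_apply, h₁, h₂]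
      simp only [map_add, map_smul, smul_eq_mul, hfa, hhb, hfb, mul_zero, add_zero]
      module
    | inv x _ hx =>
      obtain ⟨α, β, γ, h₁⟩ := hx
      refine ⟨-α, -β, -γ + α * β * h a, fun v => ?_⟩
      have key : x (v + (-α * f v) • a + (-β * h v) • b + ((-γ + α * β * h a) * f v) • b) = v := by
        rw [h₁]
        simp only [map_add, map_smul, smul_eq_mul, hfa, hhb, hfb, mul_zero, add_zero]
        module
      have h2 : x⁻¹ (x (v + (-α * f v) • a + (-β * h v) • b + ((-γ + α * β * h a) * f v) • b)) =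
          v + (-α * f v) • a + (-β * h v) • b + ((-γ + α * β * h a) * f v) • b := by
        change (x⁻¹ * x) _ = _
        simp
      rwa [key] at h2
  obtain ⟨α, β, γ, hform⟩ := form
  -- induction on the power
  have hpow : ∀ n : ℕ, ∀ v, (w ^ n) v = v + ((n : ZMod p) * α * f v) • a + ((n : ZMod p) * β * h v) • b
      + (((n : ZMod p) * γ + ((n.choose 2 : ℕ) : ZMod p) * α * β * h a) * f v) • b := by
    intro n
    induction n with
    | zero => intro v; simp
    | succ n ih =>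
      intro v
      rw [pow_succ', LinearEquiv.mul_apply, hform, ih]
      simp only [map_add, map_smul, smul_eq_mul, hfa, hhb, hfb, mul_zero, add_zero,
        Nat.choose_succ_succ' n 1, Nat.choose_one_right]
      push_cast
      module
  ext v
  rw [hpow]
  have hpp := (Fact.out : p.Prime)
  have hodd : Odd p := hpp.odd_of_ne_two hp
  have h2 : ((p.choose 2 : ℕ) : ZMod p) = 0 := by
    rw [ZMod.natCast_eq_zero_iff]
    exact hpp.dvd_choose_self (by norm_num) (by have := hpp.two_le; omega)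
  simp [h2]

end Cfsg.Agent.Lib.McL
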