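import Cfsg.Agent.Lib.McL.Flags

set_option autoImplicit false

namespace Cfsg.Agent.Lib.McL

open Module

variable {p : ℕ} [Fact p.Prime] {X : Type*} [AddCommGroup X] [Module (ZMod p) X]

/-- Two flags with `f b = 0`, `g a = 0` have commuting transvections. -/
theorem tv_commute {u w : X ≃ₗ[ZMod p] X} {a b : X} {f g : Dual (ZMod p) X}
    (hu : ∀ v, u v = v + f v • a) (hw : ∀ v, w v = v + g v • b) (hfb : f b = 0) (hga : g a = 0) :
    u * w = w * u := by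
  ext v
  simp only [LinearEquiv.mul_apply, hu, hw, map_add, map_smul, hfb, hga, smul_eq_mul, mul_zero,
    add_zero]
  abel

/-- A conjugate of a flag by an arbitrary element. -/
theorem Fl.conj_elt {G : Subgroup (X ≃ₗ[ZMod p] X)} {a : X} {f : Dual (ZMod p) X}
    (h : Fl G a f) {g : X ≃ₗ[ZMod p] X} (hg : g ∈ G) :
    ∃ u ∈ G, ∃ s ∈ G, (∀ v, u v = v + f v • a) ∧ (∀ v, s v = v + (f ∘ₗ (g⁻¹ : X ≃ₗ[ZMod p] X).toLinearMap) v • g a) ∧
      s = g * u * g⁻¹ ∧ Fl G (g a) (f ∘ₗ (g⁻¹ : X ≃ₗ[ZMod p] X).toLinearMap) := by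
  obtain ⟨ha0, hf0, hfa, u, huG, hu⟩ := h
  have hform : ∀ v, (g * u * g⁻¹) v = v + (f ∘ₗ (g⁻¹ : X ≃ₗ[ZMod p] X).toLinearMap) v • g a := by
    intro v
    have h1 : g ((g⁻¹ : X ≃ₗ[ZMod p] X) v) = v := by
      change (g * g⁻¹) v = v
      simp
    change g (u ((g⁻¹ : X ≃ₗ[ZMod p] X) v)) = _
    rw [hu, map_add, h1, map_smul]
    rfl
  have hsG : g * u * g⁻¹ ∈ G := G.mul_mem (G.mul_mem hg huG) (G.inv_mem hg)
  have h2 : ∀ x, (g⁻¹ : X ≃ₗ[ZMod p] X) (g x) = x := by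
    intro x
    change (g⁻¹ * g) x = x
    simp
  refine ⟨u, huG, _, hsG, hu, hform, rfl, ?_, ?_, ?_, _, hsG, hform⟩
  · simpa using ha0
  · intro h0
    apply hf0
    ext x
    have := congrArg (fun ψ : Dual (ZMod p) X => ψ (g x)) h0
    simpa [h2] using this
  · simp [h2, hfa]

/-- The partner property from a trivial `p`-core. -/
theorem Fl.partner_of_core [Finite X] (hp : p ≠ 2) {G : Subgroup (X ≃ₗ[ZMod p] X)}
    (hcore : ∀ N : Subgroup G, N.Normal → IsPGroup p N → N = ⊥) {a : X} {f : Dual (ZMod p) X}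
    (h : Fl G a f) : ∃ b g, Fl G b g ∧ f b ≠ 0 ∧ g a ≠ 0 := by
  haveI := finite_dual (p := p) (X := X)
  haveI : Finite (X ≃ₗ[ZMod p] X) := by
    haveI : NeZero p := ⟨(Fact.out : p.Prime).ne_zero⟩
    exact Finite.of_injective (fun e : X ≃ₗ[ZMod p] X => (e : X → X))
      (fun e e' h => LinearEquiv.ext (congrFun h))
  by_contra hno
  push Not at hno
  have hflag := h
  obtain ⟨ha0, hf0, hfa, u, huG, hu⟩ := h
  let u' : G := ⟨u, huG⟩
  have hup : u' ^ p = 1 := Subtype.ext (by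
    change u ^ p = 1
    exact tv_pow_p hfa hu)
  let Y : Subgroup G := Subgroup.zpowers u'
  have hY : IsPGroup p Y := by
    rintro ⟨y, k, rfl⟩
    refine ⟨1, Subtype.ext ?_⟩
    simp only [pow_one, Subgroup.coe_pow, Subgroup.coe_one]
    change (u' ^ k) ^ p = 1
    rw [← zpow_natCast, ← zpow_mul, mul_comm, zpow_mul, zpow_natCast, hup, one_zpow]
  obtain ⟨N, hN, hNp, hYN⟩ := Cfsg.Agent.S0199.result Y hY (by
    intro g
    obtain ⟨g0, hg0⟩ := g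
    obtain ⟨u1, hu1G, s, hsG, hu1, hs, hsdef, hfl⟩ := Fl.conj_elt hflag hg0
    have hu1eq : u1 = u := by
      ext v
      rw [hu1, hu]
    subst hu1eq
    let C : Subgroup G := (Subgroup.closure ({u1, s} : Set (X ≃ₗ[ZMod p] X))).comap G.subtype
    have hC : Y ⊔ Y.map (MulAut.conj (⟨g0, hg0⟩ : G)).toMonoidHom ≤ C := by
      refine sup_le ?_ ?_
      · rw [Subgroup.zpowers_le]
        exact Subgroup.subset_closure (Or.inl rfl)
      · rw [Subgroup.map_le_iff_le_comap, Subgroup.zpowers_le]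
        refine Subgroup.subset_closure (Or.inr ?_)
        rw [Set.mem_singleton_iff, hsdef]
        rfl
    rintro ⟨n, hn⟩
    refine ⟨1, Subtype.ext (Subtype.ext ?_)⟩
    have hnC : (n : X ≃ₗ[ZMod p] X) ∈ Subgroup.closure ({u1, s} : Set (X ≃ₗ[ZMod p] X)) := hC hn
    change ((n : X ≃ₗ[ZMod p] X)) ^ p ^ 1 = 1
    rw [pow_one]
    by_cases hfb : f (g0 a) = 0
    · exact closure_pair_pow hp hfa hfl.2.2.1 hfb hu1 hs hnC
    · have hga := hno _ _ hfl hfb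
      rw [Set.pair_comm] at hnC
      exact closure_pair_pow hp hfl.2.2.1 hfa hga hs hu1 hnC)
  have hNbot := hcore N hN hNp
  have hmem : u' ∈ N := hYN (Subgroup.mem_zpowers u')
  rw [hNbot, Subgroup.mem_bot] at hmem
  have hu1 : u = 1 := congrArg Subtype.val hmem
  apply hf0
  ext v
  have := hu v
  rw [hu1] at this
  have h0 : f v • a = 0 := by
    simpa using this.symm
  rcases smul_eq_zero.1 h0 with h | h
  · simpa using h
  · exact absurd h ha0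

/-- The `Sys` structure from a subgroup. -/
theorem Fl.sys {G : Subgroup (X ≃ₗ[ZMod p] X)}
    (hpartner : ∀ {a f}, Fl G a f → ∃ b g, Fl G b g ∧ f b ≠ 0 ∧ g a ≠ 0)
    (hconn : ∀ S : Set X, (∃ a f, Fl G a f ∧ a ∈ S) →
      (∀ {e φ y η}, e ∈ S → Fl G e φ → Fl G y η → (φ y ≠ 0 ∨ η e ≠ 0) → y ∈ S) →
      ∀ {y η}, Fl G y η → y ∈ S)
    (hsep : ∀ w : X, w ≠ 0 → ∃ e φ, Fl G e φ ∧ φ w ≠ 0)
    (hspan : Submodule.span (ZMod p) {x | ∃ f, Fl G x f} = ⊤) : Sys (Fl G) where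
  ne_left h := h.1
  ne_right h := h.2.1
  flag h := h.2.2.1
  conj ha hb := Fl.basic_conj ha hb
  smul_right := by
    rintro a f c hc ⟨ha0, hf0, hfa, u, huG, hu⟩
    obtain ⟨w, hwG, hw⟩ := Fl.smul_scalar hfa huG hu c
    exact ⟨ha0, smul_ne_zero hc hf0, by simp [hfa], w, hwG, fun v => by simpa using hw v⟩
  smul_left := by
    rintro a f c hc ⟨ha0, hf0, hfa, u, huG, hu⟩
    obtain ⟨w, hwG, hw⟩ := Fl.smul_scalar hfa huG hu c
    refine ⟨smul_ne_zero hc ha0, hf0, by simp [hfa], w, hwG, fun v => ?_⟩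
    rw [hw, smul_smul, mul_comm]
  add_right := by
    rintro a f f' ⟨ha0, hf0, hfa, u, huG, hu⟩ ⟨_, _, hfa', u', huG', hu'⟩ hne
    refine ⟨ha0, hne, by simp [hfa, hfa'], u * u', G.mul_mem huG huG', fun v => ?_⟩
    rw [LinearEquiv.mul_apply, hu', hu]
    simp only [map_add, map_smul, hfa, smul_eq_mul, mul_zero, add_zero, LinearMap.add_apply]
    module
  add_left := by
    rintro a a' f ⟨ha0, hf0, hfa, u, huG, hu⟩ ⟨_, _, hfa', u', huG', hu'⟩ hne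
    refine ⟨hne, hf0, by simp [hfa, hfa'], u * u', G.mul_mem huG huG', fun v => ?_⟩
    rw [LinearEquiv.mul_apply, hu', hu]
    simp only [map_add, map_smul, hfa', smul_eq_mul, mul_zero, add_zero]
    module
  partner := hpartner
  conn := hconn
  sep := hsep
  span := hspan

/-- Connectivity of all flags from that of a generating set. -/
theorem Fl.conn_of_gen {G : Subgroup (X ≃ₗ[ZMod p] X)} (Γ : Set (X × Dual (ZMod p) X))
    (hgen : G ≤ Subgroup.closure {u | ∃ q ∈ Γ, ∀ v, u v = v + q.2 v • q.1})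
    (hΓconn : ∀ S : Set X, (∃ q ∈ Γ, q.1 ∈ S) →
      (∀ q ∈ Γ, ∀ q' ∈ Γ, q.1 ∈ S → (q.2 q'.1 ≠ 0 ∨ q'.2 q.1 ≠ 0) → q'.1 ∈ S) → ∀ q ∈ Γ, q.1 ∈ S)
    (hΓ : ∀ q ∈ Γ, Fl G q.1 q.2)
    (hpartner : ∀ {a f}, Fl G a f → ∃ b g, Fl G b g ∧ f b ≠ 0 ∧ g a ≠ 0)
    (S : Set X) (hS : ∃ a f, Fl G a f ∧ a ∈ S)
    (hcl : ∀ {e φ y η}, e ∈ S → Fl G e φ → Fl G y η → (φ y ≠ 0 ∨ η e ≠ 0) → y ∈ S)
    {y : X} {η : Dual (ZMod p) X} (hy : Fl G y η) : y ∈ S := by
  -- a flag commuting with all of `Γ` is impossible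
  have central : ∀ {y η}, Fl G y η → ¬ ∀ q ∈ Γ, q.2 y = 0 ∧ η q.1 = 0 := by
    intro y η hy hq
    obtain ⟨b, g, hb, hηb, hgy⟩ := hpartner hy
    obtain ⟨hy0, hη0, hηy, u, huG, hu⟩ := hy
    obtain ⟨_, hg0, _, w, hwG, hw⟩ := hb
    have hcent : Subgroup.closure {u | ∃ q ∈ Γ, ∀ v, u v = v + q.2 v • q.1} ≤
        Subgroup.centralizer ({u} : Set (X ≃ₗ[ZMod p] X)) := by
      rw [Subgroup.closure_le]
      rintro x ⟨q, hqΓ, hx⟩
      rw [SetLike.mem_coe, Subgroup.mem_centralizer_singleton_iff]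
      exact tv_commute hx hu (hq q hqΓ).1 (hq q hqΓ).2
    have hwc := hcent (hgen hwG)
    rw [Subgroup.mem_centralizer_singleton_iff] at hwc
    exact hηb (tv_comm hηy hy0 hg0 hu hw hwc.symm)
  have step1 : ∃ q ∈ Γ, q.1 ∈ S := by
    by_contra hcon
    push Not at hcon
    obtain ⟨a, f, hf, haS⟩ := hS
    apply central hf
    intro q hqΓ
    by_contra hn
    have h2 : f q.1 ≠ 0 ∨ q.2 a ≠ 0 := by
      by_contra h3
      push Not at h3
      exact hn ⟨h3.2, h3.1⟩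
    exact hcon q hqΓ (hcl haS hf (hΓ q hqΓ) h2)
  have step2 := hΓconn S step1 (fun q hq q' hq' hqS h => hcl hqS (hΓ q hq) (hΓ q' hq') h)
  by_contra hyS
  apply central hy
  intro q hqΓ
  by_contra hn
  have h2 : q.2 y ≠ 0 ∨ η q.1 ≠ 0 := by
    by_contra h3
    push Not at h3
    exact hn h3
  exact hyS (hcl (step2 q hqΓ) (hΓ q hqΓ) hy h2)

end Cfsg.Agent.Lib.McL
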