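import Cfsg.Agent.Lib.McL.Flags2
import Cfsg.Agent.Lib.Classical.Lin.Transvections

set_option autoImplicit false

namespace Cfsg.Agent.Lib.McL

open Module

variable {p : ℕ} [Fact p.Prime] {X : Type*} [AddCommGroup X] [Module (ZMod p) X]

/-- `SL(X)` is generated by transvections. -/
theorem sl_mem [Finite X] {G : Subgroup (X ≃ₗ[ZMod p] X)} (h2 : 2 ≤ finrank (ZMod p) X)
    (hall : ∀ x g, x ≠ 0 → g ≠ 0 → g x = 0 → Fl G x g) (e : X ≃ₗ[ZMod p] X)
    (hdet : LinearMap.det (e : X →ₗ[ZMod p] X) = 1) : e ∈ G := by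
  haveI : NeZero p := ⟨(Fact.out : p.Prime).ne_zero⟩
  haveI : Module.Finite (ZMod p) X := Module.Finite.of_finite
  set n := finrank (ZMod p) X with hn
  let b : Basis (Fin n) (ZMod p) X := Module.finBasis (ZMod p) X
  haveI : Nontrivial (Fin n) := Fin.nontrivial_iff_two_le.2 h2
  let toE : Matrix.SpecialLinearGroup (Fin n) (ZMod p) → (X ≃ₗ[ZMod p] X) := fun M =>
    LinearEquiv.ofLinear (Matrix.toLin b b (M : Matrix (Fin n) (Fin n) (ZMod p)))
      (Matrix.toLin b b ((M⁻¹ : Matrix.SpecialLinearGroup (Fin n) (ZMod p)) : Matrix (Fin n) (Fin n) (ZMod p)))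
      (by
        rw [← Matrix.toLin_mul b b b, ← Matrix.SpecialLinearGroup.coe_mul, mul_inv_cancel]
        simp)
      (by
        rw [← Matrix.toLin_mul b b b, ← Matrix.SpecialLinearGroup.coe_mul, inv_mul_cancel]
        simp)
  have htoE : ∀ M v, toE M v = Matrix.toLin b b (M : Matrix (Fin n) (Fin n) (ZMod p)) v := fun M v => rfl
  have key : ∀ M, toE M ∈ G := by
    intro M
    refine Cfsg.Agent.Lib.Classical.Lin.Transvections.transvection_induction (F := ZMod p)
      (fun M => toE M ∈ G) ?_ ?_ M
    · intro i j hij a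
      by_cases ha : a = 0
      · subst ha
        have : toE (Matrix.SpecialLinearGroup.transvection hij (0 : ZMod p)) = 1 := by
          ext v
          rw [htoE, Matrix.SpecialLinearGroup.transvection_coeff_zero]
          simp
        rw [this]
        exact one_mem _
      · have hbi : b i ≠ 0 := b.ne_zero i
        have hf : (a • b.coord j : Dual (ZMod p) X) ≠ 0 := by
          refine smul_ne_zero ha ?_
          intro h
          have := congrArg (fun ψ : Dual (ZMod p) X => ψ (b j)) h
          simp at this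
        have hfa : (a • b.coord j : Dual (ZMod p) X) (b i) = 0 := by
          simp [Finsupp.single_apply, hij]
        obtain ⟨_, _, _, u, huG, hu⟩ := hall (b i) (a • b.coord j) hbi hf hfa
        have : toE (Matrix.SpecialLinearGroup.transvection hij a) = u := by
          apply LinearEquiv.toLinearMap_injective
          refine b.ext fun k => ?_
          change toE _ (b k) = u (b k)
          rw [htoE, hu, Matrix.SpecialLinearGroup.transvection_coe, map_add, LinearMap.add_apply,
            Matrix.toLin_one]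
          simp only [LinearMap.id_apply, Matrix.toLin_self, Matrix.single_apply, LinearMap.smul_apply,
            Basis.coord_apply, Basis.repr_self, smul_eq_mul]
          by_cases hk : j = k
          · subst hk
            simp [ite_smul]
          · simp [hk, Finsupp.single_apply, Ne.symm hk]
        rw [this]
        exact huG
    · intro A B hA hB
      have : toE (A * B) = toE A * toE B := by
        ext v
        rw [LinearEquiv.mul_apply, htoE, htoE, htoE, Matrix.SpecialLinearGroup.coe_mul,
          Matrix.toLin_mul b b b]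
        rfl
      rw [this]
      exact G.mul_mem hA hB
  have hdetM : (LinearMap.toMatrix b b (e : X →ₗ[ZMod p] X)).det = 1 := by
    rw [LinearMap.det_toMatrix, hdet]
  let M : Matrix.SpecialLinearGroup (Fin n) (ZMod p) := ⟨_, hdetM⟩
  have := key M
  have h3 : toE M = e := by
    ext v
    rw [htoE]
    change Matrix.toLin b b (LinearMap.toMatrix b b (e : X →ₗ[ZMod p] X)) v = e v
    simp
  rwa [h3] at this

section Sp

variable {G : Subgroup (X ≃ₗ[ZMod p] X)} {L : X →ₗ[ZMod p] Dual (ZMod p) X}

/-- A transvection moving `s` to `t`. -/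
theorem sp_move (hskew : ∀ x y, L x y = - L y x) (halt : ∀ x, L x x = 0) (hinj : ∀ x, L x = 0 → x = 0)
    (hfl : ∀ x, x ≠ 0 → Fl G x (L x)) {s t : X} (hst : L s t ≠ 0) :
    ∃ τ ∈ G, τ s = t ∧ (∀ x, L (t - s) x = 0 → τ x = x) ∧ ∀ x y, L (τ x) (τ y) = L x y := by
  have hne : t - s ≠ 0 := by
    intro h
    rw [sub_eq_zero] at h
    subst h
    exact hst (halt _)
  obtain ⟨_, _, hflag, u, huG, hu⟩ := hfl _ hne
  have hts : L t s ≠ 0 := by
    rw [hskew]
    exact neg_ne_zero.2 hst
  obtain ⟨w, hwG, hw⟩ := Fl.smul_scalar hflag huG hu (L t s)⁻¹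
  refine ⟨w, hwG, ?_, ?_, ?_⟩
  · rw [hw]
    have : L (t - s) s = L t s := by simp [halt]
    rw [this, inv_mul_cancel₀ hts]
    simp
  · intro x hx
    rw [hw, hx]
    simp
  · intro x y
    rw [hw, hw]
    have e1 : L x (t - s) = - L (t - s) x := hskew _ _
    have e2 := halt (t - s)
    simp only [map_add, map_smul, LinearMap.add_apply, LinearMap.smul_apply, smul_eq_mul, e1, e2]
    ring

/-- The symplectic group is generated by transvections. -/
theorem sp_mem [Finite X] (hskew : ∀ x y, L x y = - L y x) (halt : ∀ x, L x x = 0)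
    (hinj : ∀ x, L x = 0 → x = 0) (hfl : ∀ x, x ≠ 0 → Fl G x (L x)) (e : X ≃ₗ[ZMod p] X)
    (he : ∀ x y, L (e x) (e y) = L x y) : e ∈ G := by
  haveI : NeZero p := ⟨(Fact.out : p.Prime).ne_zero⟩
  haveI : Module.Finite (ZMod p) X := Module.Finite.of_finite
  -- the perp property
  have hperp : ∀ (W : Submodule (ZMod p) X) (x : X), x ∉ W →
      ∃ u, (∀ y ∈ W, L y u = 0) ∧ L x u ≠ 0 := by
    intro W x hx
    by_contra hcon
    push Not at hcon
    have h1 : L x ∈ (W.map L).dualCoannihilator.dualAnnihilator := by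
      rw [Submodule.mem_dualAnnihilator]
      intro u hu
      rw [Submodule.mem_dualCoannihilator] at hu
      exact hcon u (fun y hy => hu _ ⟨y, hy, rfl⟩)
    rw [Subspace.dualCoannihilator_dualAnnihilator_eq] at h1
    obtain ⟨y, hy, hxy⟩ := h1
    have h2 : x - y = 0 := hinj _ (by rw [map_sub, hxy, sub_self])
    rw [sub_eq_zero] at h2
    exact hx (h2 ▸ hy)
  let Fix : (X ≃ₗ[ZMod p] X) → Submodule (ZMod p) X := fun e =>
    LinearMap.ker ((e : X →ₗ[ZMod p] X) - LinearMap.id)
  have hFix : ∀ e x, x ∈ Fix e ↔ e x = x := by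
    intro e x
    simp only [Fix, LinearMap.mem_ker, LinearMap.sub_apply, LinearEquiv.coe_coe, LinearMap.id_apply,
      sub_eq_zero]
  -- strong induction
  induction hm : finrank (ZMod p) X - finrank (ZMod p) (Fix e) using Nat.strong_induction_on
    generalizing e with
  | _ m ih =>
  by_cases htop : Fix e = ⊤
  · have : e = 1 := by
      ext v
      have : v ∈ Fix e := by rw [htop]; trivial
      exact (hFix e v).1 this
    rw [this]
    exact one_mem _
  obtain ⟨v, hv⟩ : ∃ v, v ∉ Fix e := by
    by_contra hcon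
    push Not at hcon
    exact htop (eq_top_iff.2 fun x _ => hcon x)
  have hev : e v ∉ Fix e := by
    intro h
    have h1 := (hFix e _).1 h
    exact hv ((hFix e v).2 (e.injective h1))
  -- the key transvection
  have hW : ∀ x ∈ Fix e, L (e v) x = L v x := by
    intro x hx
    have := he v x
    rwa [(hFix e x).1 hx] at this
  obtain ⟨τ, hτG, hτ1, hτ2, hτ3⟩ : ∃ τ ∈ G, τ (e v) = v ∧ (∀ x ∈ Fix e, τ x = x) ∧
      ∀ x y, L (τ x) (τ y) = L x y := by
    by_cases hd : L (e v) v ≠ 0
    · obtain ⟨τ, hτG, h1, h2, h3⟩ := sp_move hskew halt hinj hfl hd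
      refine ⟨τ, hτG, h1, fun x hx => h2 x ?_, h3⟩
      simp [hW x hx]
    · push Not at hd
      obtain ⟨u, hu, hvu, hevu⟩ : ∃ u, (∀ y ∈ Fix e, L y u = 0) ∧ L v u ≠ 0 ∧ L (e v) u ≠ 0 := by
        obtain ⟨u₁, h1, h2⟩ := hperp _ v hv
        obtain ⟨u₂, h3, h4⟩ := hperp _ (e v) hev
        by_cases h5 : L (e v) u₁ ≠ 0
        · exact ⟨u₁, h1, h2, h5⟩
        by_cases h6 : L v u₂ ≠ 0
        · exact ⟨u₂, h3, h6, h4⟩
        push Not at h5 h6
        refine ⟨u₁ + u₂, fun y hy => ?_, ?_, ?_⟩
        · rw [map_add, h1 y hy, h3 y hy, add_zero]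
        · simpa [h6] using h2
        · simpa [h5] using h4
      have h1 : L (e v) (v + u) ≠ 0 := by simpa [hd] using hevu
      have h2 : L (v + u) v ≠ 0 := by
        simp only [map_add, LinearMap.add_apply, halt, zero_add]
        rw [hskew]
        exact neg_ne_zero.2 hvu
      obtain ⟨τ₁, hG1, h11, h12, h13⟩ := sp_move hskew halt hinj hfl h1
      obtain ⟨τ₂, hG2, h21, h22, h23⟩ := sp_move hskew halt hinj hfl h2
      refine ⟨τ₂ * τ₁, G.mul_mem hG2 hG1, ?_, fun x hx => ?_, fun x y => ?_⟩
      · rw [LinearEquiv.mul_apply, h11, h21]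
      · have hux : L u x = 0 := by
          rw [hskew, hu x hx, neg_zero]
        have e1 : τ₁ x = x := h12 x (by
          simp only [map_sub, map_add, LinearMap.sub_apply, LinearMap.add_apply, hW x hx, hux]
          ring)
        have e2 : τ₂ x = x := h22 x (by
          simp only [map_sub, map_add, LinearMap.sub_apply, LinearMap.add_apply, hux]
          ring)
        rw [LinearEquiv.mul_apply, e1, e2]
      · rw [LinearEquiv.mul_apply, LinearEquiv.mul_apply, h23, h13]
  -- apply induction to `τ * e`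
  have hle : Fix e < Fix (τ * e) := by
    refine lt_of_le_of_ne ?_ ?_
    · intro x hx
      rw [hFix, LinearEquiv.mul_apply, (hFix e x).1 hx, hτ2 x hx]
    · intro h
      apply hv
      rw [h, hFix, LinearEquiv.mul_apply, hτ1]
  have hlt := Submodule.finrank_lt_finrank_of_lt hle
  have hle2 : finrank (ZMod p) (Fix (τ * e)) ≤ finrank (ZMod p) X := Submodule.finrank_le _
  have hmem := ih (finrank (ZMod p) X - finrank (ZMod p) (Fix (τ * e))) (by omega) (τ * e)
    (fun x y => by rw [LinearEquiv.mul_apply, LinearEquiv.mul_apply, hτ3, he]) rfl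
  have : e = τ⁻¹ * (τ * e) := by simp
  rw [this]
  exact G.mul_mem (G.inv_mem hτG) hmem

end Sp

end Cfsg.Agent.Lib.McL
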