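import Cfsg.Agent.Lib.McL.Comp

set_option autoImplicit false

namespace Cfsg.Agent.Lib.McL

open Module

variable {p : ℕ} [Fact p.Prime] {X : Type*} [AddCommGroup X] [Module (ZMod p) X]

/-- Linear independence of a pair. -/
def Ind {A : Type*} [AddCommGroup A] [Module (ZMod p) A] (a b : A) : Prop :=
  ∀ s t : ZMod p, s • a + t • b = 0 → s = 0 ∧ t = 0

section
variable {A : Type*} [AddCommGroup A] [Module (ZMod p) A] {a b : A}

theorem Ind.left_ne (h : Ind (p := p) a b) : a ≠ 0 := by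
  intro h0
  have := (h 1 0 (by simp [h0])).1
  exact one_ne_zero this

theorem Ind.right_ne (h : Ind (p := p) a b) : b ≠ 0 := by
  intro h0
  have := (h 0 1 (by simp [h0])).2
  exact one_ne_zero this

theorem Ind.symm (h : Ind (p := p) a b) : Ind (p := p) b a := by
  intro s t hst
  have := h t s (by rwa [add_comm])
  exact ⟨this.2, this.1⟩

theorem Ind.add_ne (h : Ind (p := p) a b) : a + b ≠ 0 := by
  intro h0
  have := (h 1 1 (by simpa using h0)).1
  exact one_ne_zero this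

theorem Ind.of_ne (ha : a ≠ 0) (h : ∀ c : ZMod p, b ≠ c • a) : Ind (p := p) a b := by
  intro s t hst
  have ht : t = 0 := by
    by_contra ht
    apply h (- (t⁻¹ * s))
    have h1 : t • b = - (s • a) := eq_neg_of_add_eq_zero_right hst
    have h2 : b = t⁻¹ • (t • b) := by rw [smul_smul, inv_mul_cancel₀ ht, one_smul]
    rw [h2, h1, smul_neg, smul_smul, neg_smul]
  subst ht
  refine ⟨?_, rfl⟩
  rw [zero_smul, add_zero] at hst
  rcases smul_eq_zero.1 hst with h | h
  · exact h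
  · exact absurd h ha

theorem ind_or (ha : a ≠ 0) (b : A) : Ind (p := p) a b ∨ ∃ c : ZMod p, b = c • a := by
  by_cases h : ∃ c : ZMod p, b = c • a
  · exact Or.inr h
  · push Not at h
    exact Or.inl (Ind.of_ne ha h)

theorem Ind.smul_left (h : Ind (p := p) a b) {c : ZMod p} (hc : c ≠ 0) : Ind (p := p) (c • a) b := by
  intro s t hst
  rw [smul_smul] at hst
  obtain ⟨h1, h2⟩ := h _ _ hst
  exact ⟨(mul_eq_zero.1 h1).resolve_right hc, h2⟩

theorem exists_dual_ind (h : Ind (p := p) a b) : ∃ ξ : Dual (ZMod p) A, ξ a = 1 ∧ ξ b = 0 := by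
  have hnot : a ∉ Submodule.span (ZMod p) ({b} : Set A) := by
    intro hm
    obtain ⟨c, hc⟩ := Submodule.mem_span_singleton.1 hm
    have := (h 1 (-c) (by rw [one_smul, neg_smul, ← hc]; simp)).1
    exact one_ne_zero this
  obtain ⟨f, hf, hfb⟩ := Submodule.exists_dual_map_eq_bot_of_notMem hnot inferInstance
  refine ⟨(f a)⁻¹ • f, by simp [hf], ?_⟩
  have : f b ∈ (Submodule.span (ZMod p) ({b} : Set A)).map f :=
    Submodule.mem_map_of_mem (Submodule.mem_span_singleton_self b)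
  rw [hfb, Submodule.mem_bot] at this
  simp [this]

end

theorem dual_sep {ψ g : Dual (ZMod p) X} (h : Ind (p := p) ψ g) : ∃ v, ψ v = 1 ∧ g v = 0 := by
  by_contra hcon
  have hall : ∀ v, g v = 0 → ψ v = 0 := by
    intro v hv
    by_contra hne
    apply hcon
    refine ⟨(ψ v)⁻¹ • v, by simp [hne], by simp [hv]⟩
  obtain ⟨c, hc⟩ := dual_eq_smul_of_ker h.right_ne hall
  have := (h 1 (-c) (by rw [one_smul, neg_smul, hc]; simp)).1
  exact one_ne_zero this

theorem exists_vec_ker [Finite X] (h3 : 3 ≤ finrank (ZMod p) X) (φ φ' : Dual (ZMod p) X) :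
    ∃ x : X, x ≠ 0 ∧ φ x = 0 ∧ φ' x = 0 := by
  haveI : Module.Finite (ZMod p) X := Module.Finite.of_finite
  have hlt : finrank (ZMod p) (ZMod p × ZMod p) < finrank (ZMod p) X := by
    rw [Module.finrank_prod, Module.finrank_self]
    omega
  have hne := LinearMap.ker_ne_bot_of_finrank_lt (f := φ.prod φ') hlt
  obtain ⟨x, hx, hx0⟩ := (Submodule.ne_bot_iff _).1 hne
  have hx' : (φ x, φ' x) = 0 := LinearMap.mem_ker.1 hx
  rw [Prod.mk_eq_zero] at hx'
  exact ⟨x, hx0, hx'.1, hx'.2⟩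

theorem exists_dual_ker [Finite X] (h3 : 3 ≤ finrank (ZMod p) X) (x x' : X) :
    ∃ φ : Dual (ZMod p) X, φ ≠ 0 ∧ φ x = 0 ∧ φ x' = 0 := by
  haveI : Module.Finite (ZMod p) X := Module.Finite.of_finite
  have hlt : finrank (ZMod p) (ZMod p × ZMod p) < finrank (ZMod p) (Dual (ZMod p) X) := by
    rw [Module.finrank_prod, Module.finrank_self, Subspace.dual_finrank_eq]
    omega
  have hne := LinearMap.ker_ne_bot_of_finrank_lt
    (f := (Module.Dual.eval (ZMod p) X x).prod (Module.Dual.eval (ZMod p) X x')) hlt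
  obtain ⟨φ, hφ, hφ0⟩ := (Submodule.ne_bot_iff _).1 hne
  have hφ' : (φ x, φ x') = 0 := LinearMap.mem_ker.1 hφ
  rw [Prod.mk_eq_zero] at hφ'
  exact ⟨φ, hφ0, hφ'.1, hφ'.2⟩

theorem exists_third_vec [Finite X] (h3 : 3 ≤ finrank (ZMod p) X) (φ : Dual (ZMod p) X) {x : X}
    (hx : x ≠ 0) : ∃ x'' : X, φ x'' = 0 ∧ Ind (p := p) x x'' := by
  obtain ⟨ψ, hψ⟩ : ∃ ψ : Dual (ZMod p) X, ψ x ≠ 0 := by
    by_contra hcon
    push Not at hcon
    exact hx ((Module.forall_dual_apply_eq_zero_iff (ZMod p) x).1 hcon)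
  obtain ⟨y, hy0, hφy, hψy⟩ := exists_vec_ker h3 φ ψ
  refine ⟨y, hφy, Ind.of_ne hx fun c hc => hy0 ?_⟩
  rw [hc, map_smul, smul_eq_mul] at hψy
  have hc0 : c = 0 := (mul_eq_zero.1 hψy).resolve_right hψ
  rw [hc, hc0, zero_smul]

theorem exists_third_dual [Finite X] (h3 : 3 ≤ finrank (ZMod p) X) (x : X) {φ : Dual (ZMod p) X}
    (hφ : φ ≠ 0) : ∃ φ'' : Dual (ZMod p) X, φ'' x = 0 ∧ Ind (p := p) φ φ'' := by
  obtain ⟨z, hz⟩ : ∃ z, φ z ≠ 0 := by
    by_contra hcon
    push Not at hcon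
    exact hφ (LinearMap.ext hcon)
  obtain ⟨ψ, hψ0, hψx, hψz⟩ := exists_dual_ker h3 x z
  refine ⟨ψ, hψx, Ind.of_ne hφ fun c hc => hψ0 ?_⟩
  rw [hc, LinearMap.smul_apply, smul_eq_mul] at hψz
  have hc0 : c = 0 := (mul_eq_zero.1 hψz).resolve_right hz
  rw [hc, hc0, zero_smul]

/-- A non-empty set of flags closed under all transvections is everything (dimension at least 3). -/
theorem flags_all [Finite X] (h3 : 3 ≤ finrank (ZMod p) X) {S : X → Dual (ZMod p) X → Prop}
    (hS0 : ∃ x φ, S x φ) (hflag : ∀ x φ, S x φ → x ≠ 0 ∧ φ ≠ 0 ∧ φ x = 0)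
    (hmove : ∀ x φ, S x φ → ∀ (u : X) (ξ : Dual (ZMod p) X), u ≠ 0 → ξ ≠ 0 → ξ u = 0 →
      S (x + ξ x • u) (φ - φ u • ξ))
    {x : X} {φ : Dual (ZMod p) X} (hx : x ≠ 0) (hφ : φ ≠ 0) (hφx : φ x = 0) : S x φ := by
  have A1 : ∀ {x x' : X} {φ : Dual (ZMod p) X}, S x φ → φ x' = 0 → Ind (p := p) x x' → S x' φ := by
    intro x x' φ hS hφx' hind
    have hind2 : Ind (p := p) x (x' - x) := by
      intro s t hst
      obtain ⟨h1, h2⟩ := hind (s - t) t (by rw [← hst]; module)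
      refine ⟨?_, h2⟩
      rw [h2, sub_zero] at h1
      exact h1
    obtain ⟨ξ, hξ1, hξ2⟩ := exists_dual_ind hind2
    have hξ0 : ξ ≠ 0 := by
      rintro rfl
      simp at hξ1
    have hm := hmove x φ hS (x' - x) ξ hind2.right_ne hξ0 hξ2
    have hφu : φ (x' - x) = 0 := by
      rw [map_sub, hφx', (hflag x φ hS).2.2, sub_zero]
    rw [hφu, zero_smul, sub_zero, hξ1, one_smul, add_sub_cancel] at hm
    exact hm
  have A : ∀ {x x' : X} {φ : Dual (ZMod p) X}, S x φ → φ x' = 0 → x' ≠ 0 → S x' φ := by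
    intro x x' φ hS hφx' hx'0
    have hx0 := (hflag x φ hS).1
    rcases ind_or (p := p) hx0 x' with hind | ⟨c, rfl⟩
    · exact A1 hS hφx' hind
    · obtain ⟨y, hφy, hy⟩ := exists_third_vec h3 φ hx0
      have hc : c ≠ 0 := by
        rintro rfl
        simp at hx'0
      exact A1 (A1 hS hφy hy) hφx' (hy.smul_left hc).symm
  have B1 : ∀ {x : X} {φ φ' : Dual (ZMod p) X}, S x φ → φ' x = 0 → Ind (p := p) φ φ' → S x φ' := by
    intro x φ φ' hS hφ'x hind
    have hind2 : Ind (p := p) φ (φ - φ') := by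
      intro s t hst
      obtain ⟨h1, h2⟩ := hind (s + t) (-t) (by rw [← hst]; module)
      have ht : t = 0 := by simpa using h2
      refine ⟨?_, ht⟩
      rw [ht, add_zero] at h1
      exact h1
    obtain ⟨u, hu1, hu2⟩ := dual_sep hind2
    have hu0 : u ≠ 0 := by
      rintro rfl
      simp at hu1
    have hm := hmove x φ hS u (φ - φ') hu0 hind2.right_ne hu2
    have hξx : (φ - φ') x = 0 := by
      rw [LinearMap.sub_apply, hφ'x, (hflag x φ hS).2.2, sub_zero]
    rw [hξx, zero_smul, add_zero, hu1, one_smul, sub_sub_cancel] at hm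
    exact hm
  have B : ∀ {x : X} {φ φ' : Dual (ZMod p) X}, S x φ → φ' x = 0 → φ' ≠ 0 → S x φ' := by
    intro x φ φ' hS hφ'x hφ'0
    have hφ0 := (hflag x φ hS).2.1
    rcases ind_or (p := p) hφ0 φ' with hind | ⟨c, rfl⟩
    · exact B1 hS hφ'x hind
    · obtain ⟨y, hφy, hy⟩ := exists_third_dual h3 x hφ0
      have hc : c ≠ 0 := by
        rintro rfl
        simp at hφ'0
      exact B1 (B1 hS hφy hy) hφ'x (hy.smul_left hc).symm
  obtain ⟨x₀, φ₀, hS₀⟩ := hS0
  obtain ⟨ψ, hψ0, hψ1, hψ2⟩ := exists_dual_ker h3 x₀ x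
  exact B (A (B hS₀ hψ1 hψ0) hψ2 hx) hφx hφ

/-- Linearity from homogeneity and additivity on independent pairs. -/
theorem linear_of_ind {A B : Type*} [AddCommGroup A] [Module (ZMod p) A] [AddCommGroup B]
    [Module (ZMod p) B] (g : A → B) (hsmul : ∀ (c : ZMod p) a, g (c • a) = c • g a)
    (hadd : ∀ a b, Ind (p := p) a b → g (a + b) = g a + g b) : ∃ G : A →ₗ[ZMod p] B, ∀ a, G a = g a := by
  have h0 : g 0 = 0 := by
    have := hsmul 0 0
    simpa using this
  refine ⟨{ toFun := g, map_add' := fun a b => ?_, map_smul' := fun c a => hsmul c a }, fun a => rfl⟩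
  by_cases ha : a = 0
  · subst ha
    simp [h0]
  rcases ind_or (p := p) ha b with hind | ⟨c, rfl⟩
  · exact hadd a b hind
  · have h1 : a + c • a = (1 + c) • a := by rw [add_smul, one_smul]
    rw [h1, hsmul, hsmul, add_smul, one_smul]

end Cfsg.Agent.Lib.McL
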