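import Cfsg.Agent.Lib.McL.Ind

set_option autoImplicit false

namespace Cfsg.Agent.Lib.McL

open Module

variable {p : ℕ} [Fact p.Prime] {V : Type*} [AddCommGroup V] [Module (ZMod p) V]
  {X : Type*} [AddCommGroup X] [Module (ZMod p) X]

namespace XD

variable {Γ : Set (V × Dual (ZMod p) V)} (D : XD Γ X)

/-- A flag of the group lifting a flag of the quotient. -/
structure Lifts (q : V × Dual (ZMod p) V) (x : X) (φ : Dual (ZMod p) X) : Prop where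
  mem : q ∈ Γ
  cent : D.π ⟨q.1, mem_cen mem⟩ = x
  ax : ∀ y, φ (D.π y) = q.2 y

variable {D}

theorem Lifts.flag (hC : CompM Γ) {q : V × Dual (ZMod p) V} {x : X} {φ : Dual (ZMod p) X}
    (h : D.Lifts q x φ) : x ≠ 0 ∧ φ ≠ 0 ∧ φ x = 0 := by
  obtain ⟨q', hq', h1, h2⟩ := hC.partner q h.mem
  refine ⟨?_, ?_, ?_⟩
  · rw [← h.cent]
    intro h0
    exact h2 ((D.ker _).1 h0 q' hq')
  · intro h0
    apply h1
    have := h.ax ⟨q'.1, mem_cen hq'⟩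
    rw [h0] at this
    exact this.symm
  · rw [← h.cent, h.ax]
    exact (hC.flag q h.mem).2.2

theorem Lifts.rho (hC : CompM Γ) {q : V × Dual (ZMod p) V} {x : X} {φ : Dual (ZMod p) X}
    (h : D.Lifts q x φ) {u : genGrp Γ} (hu : ∀ v, u.1 v = v + q.2 v • q.1) (x' : X) :
    D.ρ u x' = x' + φ x' • x := by
  rw [D.rho_tv h.mem hu h.ax, h.cent]

theorem exists_lift [Finite X] (hC : CompM Γ) (h3 : 3 ≤ finrank (ZMod p) X)
    (hall : ∀ (x : X) (φ : Dual (ZMod p) X), x ≠ 0 → φ ≠ 0 → φ x = 0 → ∃ k, ∀ v, D.ρ k v = v + φ v • x)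
    {x : X} {φ : Dual (ZMod p) X} (hx : x ≠ 0) (hφ : φ ≠ 0) (hφx : φ x = 0) :
    ∃ q, D.Lifts q x φ := by
  refine flags_all h3 (S := fun x φ => ∃ q, D.Lifts q x φ) ?_ ?_ ?_ hx hφ hφx
  · obtain ⟨q, hq⟩ := hC.ne
    obtain ⟨φ, hφ⟩ := D.exists_axis hq
    exact ⟨_, φ, q, hq, rfl, hφ⟩
  · rintro x φ ⟨q, hq⟩
    exact hq.flag hC
  · rintro x φ ⟨q, hq⟩ u ξ hu hξ hξu
    obtain ⟨k, hk⟩ := hall u ξ hu hξ hξu
    have hkinv : ∀ v, D.ρ k⁻¹ v = v - ξ v • u := by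
      intro v
      rw [map_inv]
      exact tv_inv hξu hk v
    have hmem := hC.conj k.1 k.2 q hq.mem
    refine ⟨_, hmem, ?_, fun y => ?_⟩
    · have h1 := D.comp k ⟨q.1, mem_cen hq.mem⟩
      rw [hq.cent, hk] at h1
      exact h1.symm
    · have h1 := D.comp k⁻¹ y
      rw [hkinv] at h1
      have h2 : φ (D.π y - ξ (D.π y) • u) = q.2 (k⁻¹.1 y) := by
        rw [h1, hq.ax]
        rfl
      simp only [map_sub, map_smul, smul_eq_mul] at h2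
      simp only [LinearMap.sub_apply, LinearMap.smul_apply, smul_eq_mul, LinearMap.comp_apply]
      rw [mul_comm (φ u)]
      exact h2

theorem prod_formula (hC : CompM Γ) {q₁ q₂ q₃ : V × Dual (ZMod p) V} {x₁ x₂ x₃ : X}
    {φ₁ φ₂ φ₃ : Dual (ZMod p) X} (h₁ : D.Lifts q₁ x₁ φ₁) (h₂ : D.Lifts q₂ x₂ φ₂) (h₃ : D.Lifts q₃ x₃ φ₃)
    (h12 : φ₁ x₂ = 0) (hform : ∀ x', φ₂ x' • x₂ + φ₁ x' • x₁ = φ₃ x' • x₃) (v : V) :
    q₂.2 v • q₂.1 + q₁.2 v • q₁.1 = q₃.2 v • q₃.1 := by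
  have hf₁ := (hC.flag q₁ h₁.mem).2.2
  have hf₂ := (hC.flag q₂ h₂.mem).2.2
  have hf₃ := (hC.flag q₃ h₃.mem).2.2
  let u₁ : genGrp Γ := ⟨LinearEquiv.transvection hf₁, mem_genGrp_of_flag h₁.mem hf₁⟩
  let u₂ : genGrp Γ := ⟨LinearEquiv.transvection hf₂, mem_genGrp_of_flag h₂.mem hf₂⟩
  let u₃ : genGrp Γ := ⟨LinearEquiv.transvection hf₃, mem_genGrp_of_flag h₃.mem hf₃⟩
  have hu₁ : ∀ v, u₁.1 v = v + q₁.2 v • q₁.1 := fun v => LinearEquiv.transvection.apply hf₁ v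
  have hu₂ : ∀ v, u₂.1 v = v + q₂.2 v • q₂.1 := fun v => LinearEquiv.transvection.apply hf₂ v
  have hu₃ : ∀ v, u₃.1 v = v + q₃.2 v • q₃.1 := fun v => LinearEquiv.transvection.apply hf₃ v
  have heq : u₁ * u₂ = u₃ := by
    apply D.inj
    ext x
    rw [map_mul, LinearEquiv.mul_apply, h₂.rho hC hu₂, h₁.rho hC hu₁, h₃.rho hC hu₃]
    simp only [map_add, map_smul, h12, smul_eq_mul, mul_zero, add_zero]
    rw [← hform x]
    abel
  have h1 : (u₁ * u₂).1 v = u₃.1 v := by rw [heq]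
  change u₁.1 (u₂.1 v) = u₃.1 v at h1
  rw [hu₂, hu₁, hu₃] at h1
  have h2 : q₁.2 q₂.1 = 0 := by
    rw [← h₁.ax ⟨q₂.1, mem_cen h₂.mem⟩, h₂.cent, h12]
  simp only [map_add, map_smul, h2, smul_eq_mul, mul_zero, add_zero] at h1
  rw [add_assoc] at h1
  exact add_left_cancel h1

theorem same_centre (hC : CompM Γ) {q₁ q₂ q₃ : V × Dual (ZMod p) V} {x : X}
    {φ₁ φ₂ : Dual (ZMod p) X} (h₁ : D.Lifts q₁ x φ₁) (h₂ : D.Lifts q₂ x φ₂)
    (h₃ : D.Lifts q₃ x (φ₁ + φ₂)) (hind : Ind (p := p) φ₁ φ₂) :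
    q₁.1 = q₃.1 ∧ q₂.1 = q₃.1 ∧ q₃.2 = q₁.2 + q₂.2 := by
  have hf := prod_formula hC h₁ h₂ h₃ (h₁.flag hC).2.2 (fun x' => by
    rw [LinearMap.add_apply, add_smul]
    abel)
  have ha₁ : q₁.1 = q₃.1 := by
    obtain ⟨v, hv1, hv2⟩ := dual_sep hind
    obtain ⟨y, rfl⟩ := D.surj v
    have := hf y
    rw [← h₁.ax, ← h₂.ax, ← h₃.ax, LinearMap.add_apply, hv1, hv2] at this
    simpa using this
  have ha₂ : q₂.1 = q₃.1 := by
    obtain ⟨v, hv1, hv2⟩ := dual_sep hind.symm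
    obtain ⟨y, rfl⟩ := D.surj v
    have := hf y
    rw [← h₁.ax, ← h₂.ax, ← h₃.ax, LinearMap.add_apply, hv1, hv2] at this
    simpa using this
  refine ⟨ha₁, ha₂, LinearMap.ext fun v => ?_⟩
  have := hf v
  rw [ha₁, ha₂] at this
  have h2 : (q₃.2 v - (q₁.2 + q₂.2) v) • q₃.1 = 0 := by
    rw [sub_smul, ← this, LinearMap.add_apply, add_smul]
    abel
  rcases smul_eq_zero.1 h2 with h | h
  · exact sub_eq_zero.1 h
  · exact absurd h (hC.flag q₃ h₃.mem).1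

theorem same_axis (hC : CompM Γ) {q₁ q₂ q₃ : V × Dual (ZMod p) V} {x₁ x₂ : X}
    {φ : Dual (ZMod p) X} (h₁ : D.Lifts q₁ x₁ φ) (h₂ : D.Lifts q₂ x₂ φ)
    (h₃ : D.Lifts q₃ (x₁ + x₂) φ) (hind : Ind (p := p) x₁ x₂) :
    q₃.1 = q₁.1 + q₂.1 ∧ q₁.2 = q₃.2 ∧ q₂.2 = q₃.2 := by
  have hf := prod_formula hC h₁ h₂ h₃ (h₂.flag hC).2.2 (fun x' => by
    rw [smul_add]
    abel)
  have hφ0 := (h₁.flag hC).2.1
  obtain ⟨z, hz⟩ : ∃ z, φ z ≠ 0 := by
    by_contra hcon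
    push Not at hcon
    exact hφ0 (LinearMap.ext hcon)
  have ha : q₃.1 = q₁.1 + q₂.1 := by
    obtain ⟨y, hy⟩ := D.surj ((φ z)⁻¹ • z)
    have hy1 : φ (D.π y) = 1 := by
      rw [hy]
      simp [hz]
    have := hf y
    rw [← h₁.ax, ← h₂.ax, ← h₃.ax, hy1] at this
    simp only [one_smul] at this
    rw [← this]
    abel
  have hv : ∀ v, (q₁.2 v - q₃.2 v) • x₁ + (q₂.2 v - q₃.2 v) • x₂ = 0 := by
    intro v
    have h1 : (q₁.2 v - q₃.2 v) • (⟨q₁.1, mem_cen h₁.mem⟩ : ↥(cen Γ)) +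
        (q₂.2 v - q₃.2 v) • (⟨q₂.1, mem_cen h₂.mem⟩ : ↥(cen Γ)) = 0 := by
      apply Subtype.ext
      simp only [Submodule.coe_add, Submodule.coe_smul, Submodule.coe_zero]
      have := hf v
      rw [ha] at this
      rw [sub_smul, sub_smul]
      have h2 : q₃.2 v • (q₁.1 + q₂.1) = q₃.2 v • q₁.1 + q₃.2 v • q₂.1 := smul_add _ _ _
      rw [h2] at this
      rw [← sub_eq_zero] at this
      rw [← this]
      abel
    have h2 := congrArg D.π h1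
    rw [map_add, map_smul, map_smul, h₁.cent, h₂.cent, map_zero] at h2
    exact h2
  refine ⟨ha, LinearMap.ext fun v => ?_, LinearMap.ext fun v => ?_⟩
  · exact sub_eq_zero.1 (hind _ _ (hv v)).1
  · exact sub_eq_zero.1 (hind _ _ (hv v)).2

section
variable [Finite X] (hC : CompM Γ) (h3 : 3 ≤ finrank (ZMod p) X)
  (hall : ∀ (x : X) (φ : Dual (ZMod p) X), x ≠ 0 → φ ≠ 0 → φ x = 0 → ∃ k, ∀ v, D.ρ k v = v + φ v • x)
include hC h3 hall

theorem centre_indep {q₁ q₂ : V × Dual (ZMod p) V} {x : X}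
    {φ₁ φ₂ : Dual (ZMod p) X} (h₁ : D.Lifts q₁ x φ₁) (h₂ : D.Lifts q₂ x φ₂) : q₁.1 = q₂.1 := by
  have key : ∀ {q₁ q₂ : V × Dual (ZMod p) V} {φ₁ φ₂ : Dual (ZMod p) X},
      D.Lifts q₁ x φ₁ → D.Lifts q₂ x φ₂ → Ind (p := p) φ₁ φ₂ → q₁.1 = q₂.1 := by
    intro q₁ q₂ φ₁ φ₂ h₁ h₂ hind
    have hfl₁ := h₁.flag hC
    have hfl₂ := h₂.flag hC
    obtain ⟨q₃, h₃⟩ := exists_lift hC h3 hall hfl₁.1 hind.add_ne (by
      rw [LinearMap.add_apply, hfl₁.2.2, hfl₂.2.2, add_zero])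
    obtain ⟨h4, h5, _⟩ := same_centre hC h₁ h₂ h₃ hind
    rw [h4, h5]
  have hfl₁ := h₁.flag hC
  have hfl₂ := h₂.flag hC
  rcases ind_or (p := p) hfl₁.2.1 φ₂ with hind | ⟨c, rfl⟩
  · exact key h₁ h₂ hind
  · obtain ⟨φ'', hφx, hφ⟩ := exists_third_dual h3 x hfl₁.2.1
    have hc : c ≠ 0 := by
      rintro rfl
      simpa using hfl₂.2.1
    obtain ⟨q'', h''⟩ := exists_lift hC h3 hall hfl₁.1 hφ.right_ne hφx
    rw [key h₁ h'' hφ, key h₂ h'' (hφ.smul_left hc)]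

theorem axis_indep {q₁ q₂ : V × Dual (ZMod p) V} {x₁ x₂ : X}
    {φ : Dual (ZMod p) X} (h₁ : D.Lifts q₁ x₁ φ) (h₂ : D.Lifts q₂ x₂ φ) : q₁.2 = q₂.2 := by
  have key : ∀ {q₁ q₂ : V × Dual (ZMod p) V} {x₁ x₂ : X},
      D.Lifts q₁ x₁ φ → D.Lifts q₂ x₂ φ → Ind (p := p) x₁ x₂ → q₁.2 = q₂.2 := by
    intro q₁ q₂ x₁ x₂ h₁ h₂ hind
    have hfl₁ := h₁.flag hC
    have hfl₂ := h₂.flag hC
    obtain ⟨q₃, h₃⟩ := exists_lift hC h3 hall hind.add_ne hfl₁.2.1 (by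
      rw [map_add, hfl₁.2.2, hfl₂.2.2, add_zero])
    obtain ⟨_, h4, h5⟩ := same_axis hC h₁ h₂ h₃ hind
    rw [h4, h5]
  have hfl₁ := h₁.flag hC
  have hfl₂ := h₂.flag hC
  rcases ind_or (p := p) hfl₁.1 x₂ with hind | ⟨c, rfl⟩
  · exact key h₁ h₂ hind
  · obtain ⟨x'', hφx, hx⟩ := exists_third_vec h3 φ hfl₁.1
    have hc : c ≠ 0 := by
      rintro rfl
      simpa using hfl₂.1
    obtain ⟨q'', h''⟩ := exists_lift hC h3 hall hx.right_ne hfl₁.2.1 hφx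
    rw [key h₁ h'' hx, key h₂ h'' (hx.smul_left hc)]

/-- The linear section on centres. -/
theorem exists_sigma : ∃ G : X →ₗ[ZMod p] V, ∀ {q : V × Dual (ZMod p) V} {x : X}
    {φ : Dual (ZMod p) X}, D.Lifts q x φ → G x = q.1 := by
  have hex : ∀ x : X, ∃ a : V, (x = 0 → a = 0) ∧ ∀ (q : V × Dual (ZMod p) V) (φ : Dual (ZMod p) X),
      D.Lifts q x φ → q.1 = a := by
    intro x
    by_cases hx : x = 0
    · refine ⟨0, fun _ => rfl, fun q φ h => absurd hx (h.flag hC).1⟩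
    · obtain ⟨φ, hφ, hφx, -⟩ := exists_dual_ker h3 x x
      obtain ⟨q₀, h₀⟩ := exists_lift hC h3 hall hx hφ hφx
      exact ⟨q₀.1, fun h => absurd h hx, fun q φ' h => centre_indep hC h3 hall h h₀⟩
  choose g hg0 hg using hex
  obtain ⟨G, hG⟩ := linear_of_ind (p := p) g (by
      intro c x
      by_cases hc : c = 0
      · subst hc
        simp [hg0]
      by_cases hx : x = 0
      · subst hx
        simp [hg0]
      obtain ⟨φ, hφ, hφx, -⟩ := exists_dual_ker h3 x x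
      obtain ⟨q₀, h₀⟩ := exists_lift hC h3 hall hx hφ hφx
      have hmem := hC.smulL q₀ h₀.mem c hc
      have hl : D.Lifts (c • q₀.1, q₀.2) (c • x) φ := by
        refine ⟨hmem, ?_, h₀.ax⟩
        have : (⟨c • q₀.1, mem_cen hmem⟩ : ↥(cen Γ)) = c • ⟨q₀.1, mem_cen h₀.mem⟩ := rfl
        rw [this, map_smul, h₀.cent]
      rw [← hg _ _ _ hl, ← hg _ _ _ h₀]) (by
      intro x₁ x₂ hind
      obtain ⟨φ, hφ, h1, h2⟩ := exists_dual_ker h3 x₁ x₂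
      obtain ⟨q₁, h₁⟩ := exists_lift hC h3 hall hind.left_ne hφ h1
      obtain ⟨q₂, h₂⟩ := exists_lift hC h3 hall hind.right_ne hφ h2
      obtain ⟨q₃, h₃⟩ := exists_lift hC h3 hall hind.add_ne hφ (by rw [map_add, h1, h2, add_zero])
      rw [← hg _ _ _ h₁, ← hg _ _ _ h₂, ← hg _ _ _ h₃]
      exact (same_axis hC h₁ h₂ h₃ hind).1)
  refine ⟨G, fun {q x φ} h => ?_⟩
  rw [hG]
  exact (hg _ _ _ h).symm

/-- The linear section on axes. -/
theorem exists_tau : ∃ T : Dual (ZMod p) X →ₗ[ZMod p] Dual (ZMod p) V, ∀ {q : V × Dual (ZMod p) V}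
    {x : X} {φ : Dual (ZMod p) X}, D.Lifts q x φ → T φ = q.2 := by
  have hex : ∀ φ : Dual (ZMod p) X, ∃ f : Dual (ZMod p) V, (φ = 0 → f = 0) ∧
      ∀ (q : V × Dual (ZMod p) V) (x : X), D.Lifts q x φ → q.2 = f := by
    intro φ
    by_cases hφ : φ = 0
    · refine ⟨0, fun _ => rfl, fun q x h => absurd hφ (h.flag hC).2.1⟩
    · obtain ⟨x, hx, hφx, -⟩ := exists_vec_ker h3 φ φ
      obtain ⟨q₀, h₀⟩ := exists_lift hC h3 hall hx hφ hφx
      exact ⟨q₀.2, fun h => absurd h hφ, fun q x' h => axis_indep hC h3 hall h h₀⟩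
  choose g hg0 hg using hex
  obtain ⟨T, hT⟩ := linear_of_ind (p := p) g (by
      intro c φ
      by_cases hc : c = 0
      · subst hc
        simp [hg0]
      by_cases hφ : φ = 0
      · subst hφ
        simp [hg0]
      obtain ⟨x, hx, hφx, -⟩ := exists_vec_ker h3 φ φ
      obtain ⟨q₀, h₀⟩ := exists_lift hC h3 hall hx hφ hφx
      have hmem := hC.smulR q₀ h₀.mem c hc
      have hl : D.Lifts (q₀.1, c • q₀.2) x (c • φ) := by
        refine ⟨hmem, h₀.cent, fun y => ?_⟩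
        rw [LinearMap.smul_apply, h₀.ax]
        rfl
      rw [← hg _ _ _ hl, ← hg _ _ _ h₀]) (by
      intro φ₁ φ₂ hind
      obtain ⟨x, hx, h1, h2⟩ := exists_vec_ker h3 φ₁ φ₂
      obtain ⟨q₁, h₁⟩ := exists_lift hC h3 hall hx hind.left_ne h1
      obtain ⟨q₂, h₂⟩ := exists_lift hC h3 hall hx hind.right_ne h2
      obtain ⟨q₃, h₃⟩ := exists_lift hC h3 hall hx hind.add_ne (by
        rw [LinearMap.add_apply, h1, h2, add_zero])
      rw [← hg _ _ _ h₁, ← hg _ _ _ h₂, ← hg _ _ _ h₃]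
      exact (same_centre hC h₁ h₂ h₃ hind).2.2)
  refine ⟨T, fun {q x φ} h => ?_⟩
  rw [hT]
  exact (hg _ _ _ h).symm

/-- The type I splitting. -/
theorem split_one : IsCompl (cen Γ) (annA Γ) := by
  haveI : Module.Finite (ZMod p) X := Module.Finite.of_finite
  obtain ⟨G, hG⟩ := exists_sigma hC h3 hall
  obtain ⟨T, hT⟩ := exists_tau hC h3 hall
  -- `G` takes values in the span of the centres
  have hGmem : ∀ x, G x ∈ cen Γ := by
    intro x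
    by_cases hx : x = 0
    · subst hx
      simp
    · obtain ⟨φ, hφ, hφx, -⟩ := exists_dual_ker h3 x x
      obtain ⟨q₀, h₀⟩ := exists_lift hC h3 hall hx hφ hφx
      rw [hG h₀]
      exact mem_cen h₀.mem
  have hGπ : ∀ x, D.π ⟨G x, hGmem x⟩ = x := by
    intro x
    by_cases hx : x = 0
    · subst hx
      have : (⟨G 0, hGmem 0⟩ : ↥(cen Γ)) = 0 := Subtype.ext (by simp)
      rw [this, map_zero]
    · obtain ⟨φ, hφ, hφx, -⟩ := exists_dual_ker h3 x x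
      obtain ⟨q₀, h₀⟩ := exists_lift hC h3 hall hx hφ hφx
      have : (⟨G x, hGmem x⟩ : ↥(cen Γ)) = ⟨q₀.1, mem_cen h₀.mem⟩ := Subtype.ext (hG h₀)
      rw [this, h₀.cent]
  have hπG : ∀ y (hy : y ∈ cen Γ), G (D.π ⟨y, hy⟩) = y := by
    intro y hy
    induction hy using Submodule.span_induction with
    | mem v hv =>
      obtain ⟨q, hq, rfl⟩ := hv
      obtain ⟨φ, hφ⟩ := D.exists_axis hq
      exact hG (⟨hq, rfl, hφ⟩ : D.Lifts q _ φ)
    | zero =>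
      have h1 : D.π ⟨0, Submodule.zero_mem _⟩ = 0 := map_zero D.π
      rw [h1, map_zero]
    | add a b ha hb iha ihb =>
      have h1 : D.π ⟨a + b, Submodule.add_mem _ ha hb⟩ = D.π ⟨a, ha⟩ + D.π ⟨b, hb⟩ :=
        map_add D.π ⟨a, ha⟩ ⟨b, hb⟩
      rw [h1, map_add, iha, ihb]
    | smul c a ha iha =>
      have h1 : D.π ⟨c • a, Submodule.smul_mem _ c ha⟩ = c • D.π ⟨a, ha⟩ :=
        map_smul D.π c ⟨a, ha⟩
      rw [h1, map_smul, iha]
  refine ⟨?_, ?_⟩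
  · rw [Submodule.disjoint_def]
    intro y hy hy'
    have h1 : D.π ⟨y, hy⟩ = 0 := (D.ker _).2 hy'
    have h2 := hπG y hy
    rw [h1, map_zero] at h2
    exact h2.symm
  · rw [codisjoint_iff, eq_top_iff]
    rintro v -
    -- the vector of `X` representing the functional `φ ↦ T φ v`
    let Θ : Dual (ZMod p) (Dual (ZMod p) X) := (Module.Dual.eval (ZMod p) V v) ∘ₗ T
    let xv : X := (Module.evalEquiv (ZMod p) X).symm Θ
    have hxv : ∀ φ : Dual (ZMod p) X, φ xv = T φ v := fun φ => by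
      change φ ((Module.evalEquiv (ZMod p) X).symm Θ) = Θ φ
      exact Module.apply_evalEquiv_symm_apply _ _ φ Θ
    have hv : v = G xv + (v - G xv) := by abel
    rw [hv]
    refine Submodule.add_mem_sup (hGmem xv) ?_
    intro q hq
    obtain ⟨φ, hφ⟩ := D.exists_axis hq
    have hl : D.Lifts q _ φ := ⟨hq, rfl, hφ⟩
    rw [map_sub, ← hφ ⟨G xv, hGmem xv⟩, hGπ, hxv, hT hl, sub_self]

end

end XD

end Cfsg.Agent.Lib.McL
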