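import Cfsg.Agent.Lib.McL.Split
import Cfsg.Agent.Lib.McL.Split2

set_option autoImplicit false

namespace Cfsg.Agent.Lib.McL

open Module

variable {p : ℕ} [Fact p.Prime] {V : Type*} [AddCommGroup V] [Module (ZMod p) V]

theorem CompM.split [Finite V] (hp : p ≠ 2) {Γ : Set (V × Dual (ZMod p) V)} (hC : CompM Γ) :
    IsCompl (cen Γ) (annA Γ) := by
  let C' : Submodule (ZMod p) ↥(cen Γ) := (annA Γ).comap (cen Γ).subtype
  obtain ⟨D, -⟩ := hC.exists_XD (X := ↥(cen Γ) ⧸ C') hp C'.mkQ (Submodule.mkQ_surjective _)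
    (fun y => by
      rw [Submodule.mkQ_apply, Submodule.Quotient.mk_eq_zero]
      rfl)
  haveI : Finite ↥(cen Γ) := Subtype.finite
  haveI : Finite (↥(cen Γ) ⧸ C') := Finite.of_surjective C'.mkQ (Submodule.mkQ_surjective _)
  rcases D.classify hC hp with ⟨h3, hall, -⟩ | ⟨L, _, _, _, hL⟩
  · exact XD.split_one hC h3 hall
  · exact D.split_two hp hC ((hL _).2 (fun x y => by simp))

theorem CompM.main [Finite V] (hp : p ≠ 2) {Γ : Set (V × Dual (ZMod p) V)} (hC : CompM Γ) :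
    ∃ ρ : genGrp Γ →* (↥(cen Γ) ≃ₗ[ZMod p] ↥(cen Γ)),
      (∀ (h : genGrp Γ) (v : ↥(cen Γ)), ((ρ h v : ↥(cen Γ)) : V) = h.1 (v : V)) ∧
      ((ρ.range : Set (↥(cen Γ) ≃ₗ[ZMod p] ↥(cen Γ))) =
          {f : ↥(cen Γ) ≃ₗ[ZMod p] ↥(cen Γ) | LinearMap.det (f : ↥(cen Γ) →ₗ[ZMod p] ↥(cen Γ)) = 1} ∨
        ∃ B : LinearMap.BilinForm (ZMod p) ↥(cen Γ), B.IsAlt ∧ B.Nondegenerate ∧
          (ρ.range : Set (↥(cen Γ) ≃ₗ[ZMod p] ↥(cen Γ))) = {f : ↥(cen Γ) ≃ₗ[ZMod p] ↥(cen Γ) | ∀ x y, B (f x) (f y) = B x y}) := by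
  have hs := hC.split hp
  obtain ⟨D, hD⟩ := hC.exists_XD (X := ↥(cen Γ)) hp LinearMap.id Function.surjective_id
    (fun y => by
      constructor
      · intro h
        have h' : y = 0 := h
        rw [h']
        exact Submodule.zero_mem _
      · intro h
        exact Subtype.ext ((Submodule.disjoint_def.1 hs.disjoint) _ y.2 h))
  refine ⟨D.ρ, fun h v => ?_, ?_⟩
  · have h1 := D.comp h v
    rw [hD] at h1
    simp only [LinearMap.id_apply] at h1
    rw [h1]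
    rfl
  · haveI : Finite ↥(cen Γ) := Subtype.finite
    rcases D.classify hC hp with ⟨-, -, hdet⟩ | ⟨L, h1, h2, h3, hL⟩
    · exact Or.inl (Set.ext fun e => hdet e)
    · refine Or.inr ⟨L, ?_, ?_, Set.ext fun e => hL e⟩
      · exact h2
      · refine ⟨fun x hx => h3 x (LinearMap.ext hx), fun y hy => h3 y (LinearMap.ext fun x => ?_)⟩
        rw [h1]
        simp [hy x]

end Cfsg.Agent.Lib.McL
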