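import Cfsg.Agent.Lib.McL.Comp

set_option autoImplicit false

namespace Cfsg.Agent.Lib.McL

open Module

variable {p : ℕ} [Fact p.Prime] {V : Type*} [AddCommGroup V] [Module (ZMod p) V]
  {X : Type*} [AddCommGroup X] [Module (ZMod p) X]

theorem two_ne_zero_zmod (hp : p ≠ 2) : (2 : ZMod p) ≠ 0 := by
  intro h
  have h1 : ((2 : ℕ) : ZMod p) = 0 := by exact_mod_cast h
  rw [ZMod.natCast_eq_zero_iff] at h1
  exact hp ((Nat.prime_dvd_prime_iff_eq (Fact.out : p.Prime) Nat.prime_two).1 h1)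

/-- The type II splitting. -/
theorem XD.split_two {Γ : Set (V × Dual (ZMod p) V)} (D : XD Γ X) (hp : p ≠ 2) (hC : CompM Γ)
    (hneg : LinearEquiv.neg (ZMod p) ∈ D.ρ.range) : IsCompl (cen Γ) (annA Γ) := by
  obtain ⟨z, hz⟩ := hneg
  have hz1 : ∀ x, D.ρ z x = - x := fun x => by rw [hz]; rfl
  -- action on the flags
  have hflag : ∀ q ∈ Γ, z.1 q.1 = - q.1 ∧ ∀ v, q.2 (z.1 v) = - q.2 v := by
    intro q hq
    obtain ⟨ha0, hf0, hfa⟩ := hC.flag q hq
    let u : genGrp Γ := ⟨LinearEquiv.transvection hfa, mem_genGrp_of_flag hq hfa⟩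
    have hu : ∀ v, u.1 v = v + q.2 v • q.1 := fun v => LinearEquiv.transvection.apply hfa v
    have hcomm : z * u = u * z := by
      apply D.inj
      rw [map_mul, map_mul]
      ext x
      simp only [LinearEquiv.mul_apply, hz1, map_neg]
    have hv : ∀ v, q.2 v • z.1 q.1 = q.2 (z.1 v) • q.1 := by
      intro v
      have h1 : (z * u).1 v = (u * z).1 v := by rw [hcomm]
      change z.1 (u.1 v) = u.1 (z.1 v) at h1
      rw [hu, hu, map_add, map_smul] at h1
      exact add_left_cancel h1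
    obtain ⟨v₀, hv₀⟩ : ∃ v, q.2 v ≠ 0 := by
      by_contra hcon
      push Not at hcon
      exact hf0 (LinearMap.ext hcon)
    have hza : z.1 q.1 = ((q.2 v₀)⁻¹ * q.2 (z.1 v₀)) • q.1 := by
      rw [mul_smul, ← hv, smul_smul, inv_mul_cancel₀ hv₀, one_smul]
    obtain ⟨q', hq', _, hq'2⟩ := hC.partner q hq
    have hπ0 : D.π ⟨q.1, mem_cen hq⟩ ≠ 0 := by
      intro h0
      exact hq'2 ((D.ker _).1 h0 q' hq')
    -- the scalar is `-1`
    have hlam : (q.2 v₀)⁻¹ * q.2 (z.1 v₀) = -1 := by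
      have h1 := D.comp z ⟨q.1, mem_cen hq⟩
      rw [hz1] at h1
      have h2 : resA z ⟨q.1, mem_cen hq⟩ = ((q.2 v₀)⁻¹ * q.2 (z.1 v₀)) • ⟨q.1, mem_cen hq⟩ :=
        Subtype.ext hza
      rw [h2, map_smul] at h1
      have h3 : ((q.2 v₀)⁻¹ * q.2 (z.1 v₀) + 1) • D.π ⟨q.1, mem_cen hq⟩ = 0 := by
        rw [add_smul, one_smul, ← h1]
        simp
      rcases smul_eq_zero.1 h3 with h | h
      · linear_combination h
      · exact absurd h hπ0
    rw [hlam, neg_smul, one_smul] at hza
    refine ⟨hza, fun v => ?_⟩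
    have h1 := hv v
    rw [hza, smul_neg] at h1
    have h2 : (q.2 (z.1 v) + q.2 v) • q.1 = 0 := by
      rw [add_smul, ← h1]
      simp
    rcases smul_eq_zero.1 h2 with h | h
    · linear_combination h
    · exact absurd h ha0
  have hcen : ∀ y ∈ cen Γ, z.1 y = - y := by
    intro y hy
    induction hy using Submodule.span_induction with
    | mem v hv =>
      obtain ⟨q, hq, rfl⟩ := hv
      exact (hflag q hq).1
    | zero => simp
    | add a b _ _ iha ihb => rw [map_add, iha, ihb]; abel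
    | smul c a _ iha => rw [map_smul, iha, smul_neg]
  have h2 := two_ne_zero_zmod hp
  refine ⟨?_, ?_⟩
  · rw [Submodule.disjoint_def]
    intro y hy hy'
    have h1 := hcen y hy
    rw [fix_ann z.2 y hy'] at h1
    have h3 : (2 : ZMod p) • y = 0 := by
      rw [two_smul]
      nth_rewrite 1 [h1]
      simp
    rcases smul_eq_zero.1 h3 with h | h
    · exact absurd h h2
    · exact h
  · rw [codisjoint_iff, eq_top_iff]
    rintro v -
    have h3 : v = (2 : ZMod p)⁻¹ • (v - z.1 v) + (2 : ZMod p)⁻¹ • (v + z.1 v) := by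
      rw [← smul_add]
      have : v - z.1 v + (v + z.1 v) = (2 : ZMod p) • v := by
        rw [two_smul]
        abel
      rw [this, smul_smul, inv_mul_cancel₀ h2, one_smul]
    rw [h3]
    refine Submodule.add_mem_sup (Submodule.smul_mem _ _ ?_) (Submodule.smul_mem _ _ ?_)
    · have := Submodule.neg_mem _ (sub_mem_cen z.2 v)
      rwa [neg_sub] at this
    · intro q hq
      rw [map_add, (hflag q hq).2]
      simp

end Cfsg.Agent.Lib.McL
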