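import Cfsg.Agent.Lib.McL.Gen

set_option autoImplicit false

namespace Cfsg.Agent.Lib.McL

open Module

variable {p : ℕ} [Fact p.Prime] {X : Type*} [AddCommGroup X] [Module (ZMod p) X]

/-- The subgroup of `GL(X)` generated by the transvections of a set of flags. -/
def genGrp (Γ : Set (X × Dual (ZMod p) X)) : Subgroup (X ≃ₗ[ZMod p] X) :=
  Subgroup.closure {u | ∃ q ∈ Γ, ∀ v, u v = v + q.2 v • q.1}

theorem mem_genGrp_of_flag {Γ : Set (X × Dual (ZMod p) X)} {q : X × Dual (ZMod p) X} (hq : q ∈ Γ)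
    (hflag : q.2 q.1 = 0) : LinearEquiv.transvection hflag ∈ genGrp Γ :=
  Subgroup.subset_closure ⟨q, hq, fun v => LinearEquiv.transvection.apply hflag v⟩

/-- Classification of the groups generated by a connected set of flags. -/
theorem classify_group [Finite X] (hp : p ≠ 2) (Γ : Set (X × Dual (ZMod p) X))
    (hΓ : ∀ q ∈ Γ, q.1 ≠ 0 ∧ q.2 ≠ 0 ∧ q.2 q.1 = 0)
    (hcore : ∀ N : Subgroup (genGrp Γ), N.Normal → IsPGroup p N → N = ⊥)
    (hΓconn : ∀ S : Set X, (∃ q ∈ Γ, q.1 ∈ S) →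
      (∀ q ∈ Γ, ∀ q' ∈ Γ, q.1 ∈ S → (q.2 q'.1 ≠ 0 ∨ q'.2 q.1 ≠ 0) → q'.1 ∈ S) → ∀ q ∈ Γ, q.1 ∈ S)
    (hne : Γ.Nonempty)
    (hspan : Submodule.span (ZMod p) ((fun q : X × Dual (ZMod p) X => q.1) '' Γ) = ⊤)
    (hsep : ∀ w : X, w ≠ 0 → ∃ q ∈ Γ, q.2 w ≠ 0) :
    (3 ≤ finrank (ZMod p) X ∧ (∀ x g, x ≠ 0 → g ≠ 0 → g x = 0 → Fl (genGrp Γ) x g) ∧
      ∀ e : X ≃ₗ[ZMod p] X, e ∈ genGrp Γ ↔ LinearMap.det (e : X →ₗ[ZMod p] X) = 1) ∨
    ∃ L : X →ₗ[ZMod p] Dual (ZMod p) X, (∀ x y, L x y = - L y x) ∧ (∀ x, L x x = 0) ∧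
      (∀ x, L x = 0 → x = 0) ∧ (∀ x, x ≠ 0 → Fl (genGrp Γ) x (L x)) ∧
      ∀ e : X ≃ₗ[ZMod p] X, e ∈ genGrp Γ ↔ ∀ x y, L (e x) (e y) = L x y := by
  set G := genGrp Γ with hG
  have hΓfl : ∀ q ∈ Γ, Fl G q.1 q.2 := fun q hq =>
    ⟨(hΓ q hq).1, (hΓ q hq).2.1, (hΓ q hq).2.2, _, mem_genGrp_of_flag hq (hΓ q hq).2.2,
      fun v => LinearEquiv.transvection.apply _ v⟩
  have hpartner : ∀ {a f}, Fl G a f → ∃ b g, Fl G b g ∧ f b ≠ 0 ∧ g a ≠ 0 :=
    fun h => Fl.partner_of_core hp hcore h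
  have hsys : Sys (Fl G) := by
    refine Fl.sys hpartner ?_ ?_ ?_
    · intro S hS hcl y η hy
      exact Fl.conn_of_gen Γ le_rfl hΓconn hΓfl hpartner S hS hcl hy
    · intro w hw
      obtain ⟨q, hq, hqw⟩ := hsep w hw
      exact ⟨q.1, q.2, hΓfl q hq, hqw⟩
    · rw [eq_top_iff, ← hspan]
      apply Submodule.span_mono
      rintro _ ⟨q, hq, rfl⟩
      exact ⟨q.2, hΓfl q hq⟩
  obtain ⟨q₀, hq₀⟩ := hne
  rcases hsys.classify hp ⟨q₀.1, q₀.2, hΓfl q₀ hq₀⟩ with ⟨h3, hall⟩ | ⟨L, hskew, halt, hinj, hchar⟩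
  · refine Or.inl ⟨h3, hall, fun e => ⟨fun he => ?_, fun he => sl_mem (by omega) hall e he⟩⟩
    have hle : G ≤ (LinearEquiv.det (R := ZMod p) (M := X)).ker := by
      rw [hG, genGrp, Subgroup.closure_le]
      rintro u ⟨q, hq, hu⟩
      have : u = LinearEquiv.transvection (hΓ q hq).2.2 := by
        ext v
        rw [hu, LinearEquiv.transvection.apply]
      rw [SetLike.mem_coe, MonoidHom.mem_ker, this, LinearEquiv.transvection.det_eq_one]
    have h1 := hle he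
    rw [MonoidHom.mem_ker] at h1
    have h2 := congrArg Units.val h1
    rwa [LinearEquiv.coe_det, Units.val_one] at h2
  · have hfl : ∀ x, x ≠ 0 → Fl G x (L x) := fun x hx =>
      (hchar x (L x)).2 ⟨hx, 1, one_ne_zero, by simp⟩
    refine Or.inr ⟨L, hskew, halt, hinj, hfl, fun e => ⟨fun he => ?_, fun he => sp_mem hskew halt hinj hfl e he⟩⟩
    let K : Subgroup (X ≃ₗ[ZMod p] X) :=
      { carrier := {e | ∀ x y, L (e x) (e y) = L x y}
        mul_mem' := by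
          intro a b ha hb x y
          rw [LinearEquiv.mul_apply, LinearEquiv.mul_apply, ha, hb]
        one_mem' := fun x y => rfl
        inv_mem' := by
          intro a ha x y
          have h1 : ∀ z, a ((a⁻¹ : X ≃ₗ[ZMod p] X) z) = z := fun z => by
            change (a * a⁻¹) z = z
            simp
          have := ha (a⁻¹ x) (a⁻¹ y)
          rw [h1, h1] at this
          exact this.symm }
    have hle : G ≤ K := by
      rw [hG, genGrp, Subgroup.closure_le]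
      rintro u ⟨q, hq, hu⟩
      obtain ⟨_, c, _, hc⟩ := (hchar q.1 q.2).1 (hΓfl q hq)
      intro x y
      rw [hu, hu, hc]
      have e1 : L x q.1 = - L q.1 x := hskew _ _
      simp only [map_add, map_smul, LinearMap.add_apply, LinearMap.smul_apply, smul_eq_mul, e1, halt]
      ring
    exact hle he

end Cfsg.Agent.Lib.McL
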